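/-
From `S` normal in `F` and `Out_F(S)` abelian of exponent dividing `p - 1`, a chain of strongly closed subgroups with
cyclic steps.
-/
import Mathlib
import Cfsg.Agent.Lib.Fusion.Super.Forward
import Cfsg.Agent.Lib.Fusion.Resist.GL

set_option autoImplicit false
set_option linter.style.haveILetI false
set_option linter.unusedSectionVars false

namespace Cfsg.Agent.Lib.Fusion.Super.Backward

open Cfsg Cfsg.FusionSystem Cfsg.Agent.Lib.Fusion.Basic Cfsg.Agent.Lib.Fusion.Saturated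
  Cfsg.Agent.Lib.Fusion.Saturated2 Cfsg.Agent.Lib.Fusion.Chain Cfsg.Agent.Lib.Fusion.Super.Section
  Cfsg.Agent.Lib.Fusion.Super.Forward Cfsg.Agent.Lib.Fusion.Resist.GL Cfsg.Agent.Lib.PGroup
open scoped commutatorElement

section Linear

open Polynomial

variable {p : ℕ} [hp : Fact p.Prime] {V : Type*} [AddCommGroup V] [Module (ZMod p) V]

theorem prod_X_sub_C_eq : ∏ a : ZMod p, (X - C a) = (X ^ p - X : (ZMod p)[X]) := by
  have hq := FiniteField.roots_X_pow_card_sub_X (ZMod p)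
  rw [ZMod.card p] at hq
  have h2 := hp.out.two_le
  have hdeg1 : (X : (ZMod p)[X]).degree < ((X : (ZMod p)[X]) ^ p).degree := by
    rw [degree_X_pow, degree_X]
    exact_mod_cast (by omega : 1 < p)
  have hmon : (X ^ p - X : (ZMod p)[X]).Monic := (monic_X_pow p).sub_of_left hdeg1
  have hdeg : (X ^ p - X : (ZMod p)[X]).natDegree = p := by
    exact FiniteField.X_pow_card_sub_X_natDegree_eq (ZMod p) (by omega : 1 < p)
  have h := Polynomial.prod_multiset_X_sub_C_of_monic_of_roots_card_eq hmon (by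
    rw [hq, hdeg]
    simp [ZMod.card])
  rw [hq] at h
  exact h

/-- A linear map with `x ^ p = x` over `𝔽ₚ` has an eigenvector in any nonzero invariant subspace. -/
theorem exists_eigenvector_of_frob (x : Module.End (ZMod p) V) (hx : x ^ p = x)
    (U : Submodule (ZMod p) V) (hU : ∀ u ∈ U, x u ∈ U) {u₀ : V} (hu₀ : u₀ ∈ U) (hne : u₀ ≠ 0) :
    ∃ a : ZMod p, ∃ u ∈ U, u ≠ 0 ∧ x u = a • u := by
  classical
  have key : ∀ s : Finset (ZMod p), ∀ u ∈ U,
      (aeval x (∏ a ∈ s, (X - C a))) u ∈ U ∧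
        (u ≠ 0 → aeval x (∏ a ∈ s, (X - C a)) u = 0 → ∃ a : ZMod p, ∃ w ∈ U, w ≠ 0 ∧ x w = a • w) := by
    intro s
    induction s using Finset.induction_on with
    | empty =>
      intro u hu
      simp only [Finset.prod_empty, map_one]
      refine ⟨hu, fun h0 h1 => absurd h1 h0⟩
    | insert b s hb ih =>
      intro u hu
      obtain ⟨h1, h2⟩ := ih u hu
      rw [Finset.prod_insert hb, map_mul]
      set w := (aeval x (∏ a ∈ s, (X - C a))) u with hw
      have e : ∀ w : V, (aeval x (X - C b)) w = x w - b • w := by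
        intro w
        simp [Module.algebraMap_end_apply]
      constructor
      · rw [Module.End.mul_apply, e]
        exact U.sub_mem (hU w h1) (U.smul_mem b h1)
      · intro h3 h4
        rw [Module.End.mul_apply, e] at h4
        by_cases hw0 : w = 0
        · exact h2 h3 hw0
        · exact ⟨b, w, h1, hw0, sub_eq_zero.1 h4⟩
  have h1 := (key Finset.univ u₀ hu₀).2 hne
  apply h1
  rw [prod_X_sub_C_eq]
  simp [hx]

/-- A commuting family of linear maps with `x ^ p = x` has a common eigenvector. -/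
theorem exists_common_eigenvector [Finite V] [Nontrivial V] (𝒜 : Set (Module.End (ZMod p) V))
    (hfrob : ∀ x ∈ 𝒜, x ^ p = x) (hcomm : ∀ x ∈ 𝒜, ∀ y ∈ 𝒜, x * y = y * x) :
    ∃ v : V, v ≠ 0 ∧ ∀ x ∈ 𝒜, ∃ a : ZMod p, x v = a • v := by
  classical
  let 𝒮 : Set (Submodule (ZMod p) V) := {U | U ≠ ⊥ ∧ ∀ x ∈ 𝒜, ∀ u ∈ U, x u ∈ U}
  haveI : Finite (Submodule (ZMod p) V) :=
    Finite.of_injective (fun U => (U : Set V)) SetLike.coe_injective
  have hne : 𝒮.Nonempty := ⟨⊤, top_ne_bot, fun _ _ _ _ => trivial⟩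
  obtain ⟨U, hU⟩ := (Set.toFinite 𝒮).exists_minimal hne
  obtain ⟨hU1, hU2⟩ := hU.prop
  obtain ⟨v, hv, hv0⟩ := Submodule.exists_mem_ne_zero_of_ne_bot hU1
  refine ⟨v, hv0, fun x hx => ?_⟩
  obtain ⟨a, u, hu, hu0, hxu⟩ := exists_eigenvector_of_frob x (hfrob x hx) U (hU2 x hx) hv hv0
  refine ⟨a, ?_⟩
  let E : Submodule (ZMod p) V := U ⊓ LinearMap.ker (x - algebraMap (ZMod p) _ a)
  have hker : ∀ w, w ∈ LinearMap.ker (x - algebraMap (ZMod p) _ a) ↔ x w = a • w := by
    intro w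
    rw [LinearMap.mem_ker, LinearMap.sub_apply, Module.algebraMap_end_apply, sub_eq_zero]
  have hE : ∀ w ∈ E, x w = a • w := fun w hw => (hker w).1 hw.2
  have hEmem : E ∈ 𝒮 := by
    refine ⟨?_, fun y hy w hw => ⟨hU2 y hy w hw.1, ?_⟩⟩
    · intro hb
      have h1 : u ∈ E := ⟨hu, (hker u).2 hxu⟩
      rw [hb] at h1
      exact hu0 h1
    · show y w ∈ LinearMap.ker (x - algebraMap (ZMod p) _ a)
      rw [hker]
      have h1 : x (y w) = y (x w) := by
        have := congrArg (fun f : Module.End (ZMod p) V => f w) (hcomm x hx y hy)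
        exact this
      rw [h1, hE w hw, map_smul]
  have hUE : U ≤ E := hU.le_of_le hEmem inf_le_left
  exact hE v (hUE hv)

end Linear

section Omega

variable {Γ : Type*} [Group Γ]

/-- `Ω₁(Z(Γ))`. -/
def omegaCenter (Γ : Type*) [Group Γ] (p : ℕ) : Subgroup Γ where
  carrier := {z | z ∈ Subgroup.center Γ ∧ z ^ p = 1}
  one_mem' := ⟨one_mem _, one_pow _⟩
  mul_mem' := by
    rintro a b ⟨ha, ha'⟩ ⟨hb, hb'⟩
    refine ⟨mul_mem ha hb, ?_⟩
    have : Commute a b := (Subgroup.mem_center_iff.1 ha b).symm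
    rw [this.mul_pow, ha', hb', one_mul]
  inv_mem' := by
    rintro a ⟨ha, ha'⟩
    exact ⟨inv_mem ha, by rw [inv_pow, ha', inv_one]⟩

theorem exists_mem_omegaCenter [Finite Γ] [Nontrivial Γ] {p : ℕ} [hp : Fact p.Prime] (hΓ : IsPGroup p Γ) :
    ∃ z ∈ omegaCenter Γ p, z ≠ 1 := by
  classical
  haveI := hΓ.center_nontrivial
  have hZ : IsPGroup p (Subgroup.center Γ) := hΓ.to_subgroup _
  have hd : p ∣ Nat.card (Subgroup.center Γ) := by
    obtain ⟨n, hn⟩ := IsPGroup.iff_card.1 hZ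
    have h1 : Nat.card (Subgroup.center Γ) ≠ 1 := by
      intro h
      have := (Nat.card_eq_one_iff_unique.1 h).1
      exact not_subsingleton _ this
    rw [hn]
    rcases n with _ | n
    · simp [hn] at h1
    · exact dvd_pow_self p (Nat.succ_ne_zero n)
  obtain ⟨z, hz⟩ := exists_prime_orderOf_dvd_card' p hd
  refine ⟨z.1, ⟨z.2, ?_⟩, ?_⟩
  · have := pow_orderOf_eq_one z
    rw [hz] at this
    exact congrArg Subtype.val this
  · intro h
    have h1 : z = 1 := Subtype.ext h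
    rw [h1, orderOf_one] at hz
    exact hp.out.one_lt.ne hz

end Omega

section Step

variable {P : Type*} [Group P] [Finite P] {p : ℕ} [hp : Fact p.Prime]

/-- **The step**: an invariant proper subgroup is extended by one element, in an invariant way. -/
theorem exists_step (hP : IsPGroup p P) {A H : Subgroup (MulAut P)} (hHA : H ≤ A)
    (hinn : ∀ g : P, MulAut.conj g ∈ A) (hdec : ∀ a ∈ A, ∃ g : P, ∃ h ∈ H, a = MulAut.conj g * h)
    (hcomm : ∀ h ∈ H, ∀ k ∈ H, h * k = k * h) (hpow : ∀ h ∈ H, h ^ (p - 1) = 1)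
    {T : Subgroup P} (hT : ∀ a ∈ A, ∀ x ∈ T, a x ∈ T) (hne : T ≠ ⊤) :
    ∃ x : P, x ∉ T ∧ ∀ a ∈ A, ∀ y ∈ T ⊔ Subgroup.zpowers x, a y ∈ T ⊔ Subgroup.zpowers x := by
  classical
  haveI hTn : T.Normal := ⟨fun n hn g => by
    have := hT _ (hinn g) n hn
    rwa [MulAut.conj_apply] at this⟩
  let q : P →* P ⧸ T := QuotientGroup.mk' T
  have hq1 : ∀ x, q x = 1 ↔ x ∈ T := fun x => QuotientGroup.eq_one_iff x
  have hqsurj : Function.Surjective q := QuotientGroup.mk'_surjective T
  haveI hΓnt : Nontrivial (P ⧸ T) := QuotientGroup.nontrivial_iff.2 hne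
  have hΓp : IsPGroup p (P ⧸ T) := hP.to_quotient T
  let W : Subgroup P := (omegaCenter (P ⧸ T) p).comap q
  have hTW : T ≤ W := by
    intro x hx
    show q x ∈ omegaCenter (P ⧸ T) p
    rw [(hq1 x).2 hx]
    exact one_mem _
  have hqa : ∀ a ∈ A, ∀ u v, q u = q v → q (a u) = q (a v) := by
    intro a ha u v huv
    have h1 : u⁻¹ * v ∈ T := by
      apply QuotientGroup.eq.1
      exact huv
    have h2 := hT a ha _ h1
    rw [map_mul, map_inv] at h2
    exact QuotientGroup.eq.2 h2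
  have hW : ∀ a ∈ A, ∀ x ∈ W, a x ∈ W := by
    intro a ha x hx
    obtain ⟨hx1, hx2⟩ := hx
    refine ⟨?_, ?_⟩
    · rw [Subgroup.mem_center_iff]
      intro g
      obtain ⟨g', rfl⟩ := hqsurj g
      obtain ⟨g'', rfl⟩ := a.surjective g'
      have h1 : q (g'' * x) = q (x * g'') := by
        rw [map_mul, map_mul]
        exact (Subgroup.mem_center_iff.1 hx1 (q g''))
      have h2 := hqa a ha _ _ h1
      rw [map_mul, map_mul, map_mul, map_mul] at h2
      exact h2
    · have h1 : x ^ p ∈ T := by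
        rw [← hq1, map_pow]
        exact hx2
      have h2 := hT a ha _ h1
      rw [map_pow] at h2
      have h3 := (hq1 _).2 h2
      rwa [map_pow] at h3
  have hT' : ∀ a ∈ A, ∀ x ∈ T, a x ∈ T := hT
  haveI hN' : (T.subgroupOf W).Normal := inferInstance
  let Hq := W ⧸ T.subgroupOf W
  haveI hHqfin : Finite Hq := inferInstance
  have hHqp : IsPGroup p Hq := IsPGroup.to_quotient (hP.to_subgroup W) _
  obtain ⟨V, _, _, π, hπ, hker⟩ := FrattiniBasis.exists_vector_space hHqp
  haveI : Finite V := by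
    have hs : Function.Surjective (fun x : Hq => Multiplicative.toAdd (π x)) := by
      intro v
      obtain ⟨x, hx⟩ := hπ (Multiplicative.ofAdd v)
      exact ⟨x, by simp [hx]⟩
    exact Finite.of_surjective _ hs
  -- the Frattini subgroup of `W / T` is trivial
  have hmem : ∀ y : W, ((y : Hq) = 1 ↔ (y : P) ∈ T) := fun y => QuotientGroup.eq_one_iff y
  have hΦ : frattini Hq = ⊥ := by
    rw [eq_bot_iff, Basic.frattini_le_iff hHqp]
    constructor
    · intro x
      induction x using QuotientGroup.induction_on with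
      | H x =>
        rw [Subgroup.mem_bot, ← QuotientGroup.mk_pow, hmem, Subgroup.coe_pow, ← hq1, map_pow]
        exact x.2.2
    · intro x y
      induction x using QuotientGroup.induction_on with
      | H x =>
        induction y using QuotientGroup.induction_on with
        | H y =>
          rw [Subgroup.mem_bot, commutatorElement_eq_one_iff_mul_comm, ← QuotientGroup.mk_mul,
            ← QuotientGroup.mk_mul, QuotientGroup.eq]
          show ((x * y)⁻¹ * (y * x)).1 ∈ T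
          rw [← hq1]
          have h1 : q x.1 * q y.1 = q y.1 * q x.1 := (Subgroup.mem_center_iff.1 x.2.1 (q y.1)).symm
          simp only [Subgroup.coe_mul, InvMemClass.coe_inv, map_mul, map_inv, mul_inv_rev]
          rw [← h1]
          group
  have hπinj : ∀ x y, π x = π y → x = y := by
    intro x y hxy
    have h1 : x⁻¹ * y ∈ π.ker := by
      rw [MonoidHom.mem_ker, map_mul, map_inv, hxy, inv_mul_cancel]
    rw [hker, hΦ, Subgroup.mem_bot] at h1
    exact inv_mul_eq_one.1 h1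
  let σ : A →* MulAut Hq := secHom hW hT
  let ρ : MulAut Hq →* (V ≃ₗ[ZMod p] V) := frattGL (p := p) π hπ hker
  let τ : A →* (V ≃ₗ[ZMod p] V) := ρ.comp σ
  -- inner automorphisms act trivially
  have hτinn : ∀ g : P, τ ⟨MulAut.conj g, hinn g⟩ = 1 := by
    intro g
    have h1 : σ ⟨MulAut.conj g, hinn g⟩ = 1 := by
      ext x
      induction x using QuotientGroup.induction_on with
      | H x =>
        show ((⟨MulAut.conj g x.1, _⟩ : W) : Hq) = (x : Hq)
        rw [QuotientGroup.eq]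
        show ((⟨MulAut.conj g x.1, _⟩ : W)⁻¹ * x).1 ∈ T
        rw [← hq1]
        have h2 : q g * q x.1 = q x.1 * q g := (Subgroup.mem_center_iff.1 x.2.1 (q g))
        simp only [Subgroup.coe_mul, InvMemClass.coe_inv, MulAut.conj_apply, map_mul, map_inv, mul_inv_rev]
        rw [inv_inv]
        have h3 : q g * ((q x.1)⁻¹ * (q g)⁻¹) * q x.1 = q g * (q g * q x.1)⁻¹ * q x.1 := by group
        rw [h3, h2]
        group
    show ρ (σ _) = 1
    rw [h1, map_one]
  have hτdec : ∀ a : A, ∃ (h : MulAut P) (hh : h ∈ H), τ a = τ ⟨h, hHA hh⟩ := by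
    intro a
    obtain ⟨g, h, hh, he⟩ := hdec a.1 a.2
    refine ⟨h, hh, ?_⟩
    have h1 : a = ⟨MulAut.conj g, hinn g⟩ * ⟨h, hHA hh⟩ := Subtype.ext he
    rw [h1, map_mul, hτinn, one_mul]
  -- the commuting family
  let j : (V ≃ₗ[ZMod p] V) →* Module.End (ZMod p) V := LinearEquiv.automorphismGroup.toLinearMapMonoidHom
  let 𝒜 : Set (Module.End (ZMod p) V) := Set.range (fun a : A => j (τ a))
  have hfrob : ∀ x ∈ 𝒜, x ^ p = x := by
    rintro _ ⟨a, rfl⟩
    obtain ⟨h, hh, he⟩ := hτdec a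
    show (j (τ a)) ^ p = j (τ a)
    rw [he, ← map_pow, ← map_pow]
    congr 2
    apply Subtype.ext
    have h1 : h ^ p = h ^ (p - 1) * h := by
      rw [← pow_succ, Nat.sub_add_cancel hp.out.one_le]
    show h ^ p = h
    rw [h1, hpow h hh, one_mul]
  have hcomm' : ∀ x ∈ 𝒜, ∀ y ∈ 𝒜, x * y = y * x := by
    rintro _ ⟨a, rfl⟩ _ ⟨b, rfl⟩
    obtain ⟨h, hh, he⟩ := hτdec a
    obtain ⟨k, hk, he'⟩ := hτdec b
    show j (τ a) * j (τ b) = j (τ b) * j (τ a)
    rw [he, he', ← map_mul, ← map_mul, ← map_mul, ← map_mul]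
    congr 2
    exact Subtype.ext (hcomm h hh k hk)
  -- nontriviality
  obtain ⟨z, hz, hz1⟩ := exists_mem_omegaCenter hΓp
  obtain ⟨x₁, rfl⟩ := hqsurj z
  have hx₁W : x₁ ∈ W := hz
  have hx₁T : x₁ ∉ T := fun h => hz1 ((hq1 x₁).2 h)
  have hmkne : ∀ y : W, (y : P) ∉ T → Multiplicative.toAdd (π (y : Hq)) ≠ 0 := by
    intro y hy h0
    have h1 : π (y : Hq) = π 1 := by
      rw [map_one]
      exact Multiplicative.toAdd.injective h0
    exact hy ((hmem y).1 (hπinj _ _ h1))
  haveI : Nontrivial V := ⟨⟨_, 0, hmkne ⟨x₁, hx₁W⟩ hx₁T⟩⟩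
  obtain ⟨v, hv0, hv⟩ := exists_common_eigenvector 𝒜 hfrob hcomm'
  obtain ⟨wb, hwb⟩ := hπ (Multiplicative.ofAdd v)
  induction wb using QuotientGroup.induction_on with
  | H x₀ =>
  have hvx : v = Multiplicative.toAdd (π (x₀ : Hq)) := by rw [hwb]; rfl
  have hx₀T : (x₀ : P) ∉ T := by
    intro h
    apply hv0
    rw [hvx, (hmem x₀).2 h, map_one]
    rfl
  refine ⟨x₀, hx₀T, ?_⟩
  have hkey : ∀ a ∈ A, a x₀ ∈ T ⊔ Subgroup.zpowers (x₀ : P) := by
    intro a ha
    obtain ⟨c, hc⟩ := hv _ ⟨⟨a, ha⟩, rfl⟩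
    have h1 : (τ ⟨a, ha⟩) v = c • v := hc
    rw [hvx] at h1
    have h2 : τ ⟨a, ha⟩ = ρ (σ ⟨a, ha⟩) := rfl
    rw [h2, frattGL_apply] at h1
    have h3 : σ ⟨a, ha⟩ (x₀ : Hq) = ((⟨a x₀, hW a ha _ x₀.2⟩ : W) : Hq) := rfl
    rw [h3] at h1
    -- `c` as a natural number
    have hc' : c = ((c.val : ℕ) : ZMod p) := (ZMod.natCast_zmod_val c).symm
    set n := c.val with hn
    rw [hc', Nat.cast_smul_eq_nsmul] at h1
    have h4 : n • Multiplicative.toAdd (π (x₀ : Hq)) = Multiplicative.toAdd (π ((x₀ : Hq) ^ n)) := by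
      rw [map_pow]
      rfl
    rw [h4] at h1
    have h5 := hπinj _ _ (Multiplicative.toAdd.injective h1)
    rw [← QuotientGroup.mk_pow, QuotientGroup.eq] at h5
    have h6 : ((⟨a x₀, hW a ha _ x₀.2⟩ : W)⁻¹ * x₀ ^ n).1 ∈ T := h5
    have h7 : (a x₀.1)⁻¹ * x₀.1 ^ n ∈ T := h6
    have h8 : a x₀.1 = x₀.1 ^ n * ((a x₀.1)⁻¹ * x₀.1 ^ n)⁻¹ := by group
    rw [h8]
    exact mul_mem ((le_sup_right : Subgroup.zpowers x₀.1 ≤ _) (pow_mem (Subgroup.mem_zpowers _) n))
      ((le_sup_left : T ≤ _) (T.inv_mem h7))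
  intro a ha y hy
  have hle : T ⊔ Subgroup.zpowers (x₀ : P) ≤ (T ⊔ Subgroup.zpowers (x₀ : P)).comap a.toMonoidHom := by
    rw [sup_le_iff, Subgroup.zpowers_le]
    constructor
    · intro u hu
      exact (le_sup_left : T ≤ _) (hT a ha u hu)
    · exact hkey a ha
  exact hle hy

/-- **The chain**. -/
theorem exists_chain (hP : IsPGroup p P) {A H : Subgroup (MulAut P)} (hHA : H ≤ A)
    (hinn : ∀ g : P, MulAut.conj g ∈ A) (hdec : ∀ a ∈ A, ∃ g : P, ∃ h ∈ H, a = MulAut.conj g * h)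
    (hcomm : ∀ h ∈ H, ∀ k ∈ H, h * k = k * h) (hpow : ∀ h ∈ H, h ^ (p - 1) = 1)
    (T : Subgroup P) (hT : ∀ a ∈ A, ∀ x ∈ T, a x ∈ T) :
    ∃ (D : ℕ → Subgroup P) (m : ℕ), D 0 = T ∧ D m = ⊤ ∧ (∀ i ≤ m, ∀ a ∈ A, ∀ x ∈ D i, a x ∈ D i) ∧
      ∀ i < m, D i ≤ D (i + 1) ∧ ∃ x : P, D (i + 1) = D i ⊔ Subgroup.zpowers x := by
  classical
  haveI : Finite (Subgroup P) := Finite.of_injective (fun U => (U : Set P)) SetLike.coe_injective
  induction T using WellFoundedGT.induction with
  | ind T ih =>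
    by_cases htop : T = ⊤
    · subst htop
      exact ⟨fun _ => ⊤, 0, rfl, rfl, fun _ _ _ _ _ _ => trivial, fun i hi => absurd hi (Nat.not_lt_zero i)⟩
    · obtain ⟨x, hx, hinv⟩ := exists_step hP hHA hinn hdec hcomm hpow hT htop
      have hlt : T < T ⊔ Subgroup.zpowers x := by
        refine lt_of_le_of_ne le_sup_left fun h => hx ?_
        rw [h]
        exact (le_sup_right : Subgroup.zpowers x ≤ _) (Subgroup.mem_zpowers x)
      obtain ⟨D', m', h0, hm, hD1, hD2⟩ := ih _ hlt hinv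
      refine ⟨fun j => Nat.casesOn j T D', m' + 1, rfl, hm, ?_, ?_⟩
      · intro i hi
        cases i with
        | zero => exact hT
        | succ i => exact hD1 i (by omega)
      · intro i hi
        cases i with
        | zero =>
          refine ⟨?_, x, ?_⟩
          · show T ≤ D' 0
            rw [h0]
            exact le_sup_left
          · show D' 0 = T ⊔ Subgroup.zpowers x
            exact h0
        | succ i => exact hD2 i (by omega)

end Step

section Fusion

variable {Ω : Type*} [Group Ω] {S : Subgroup Ω} {F : FusionSystem S} [Finite S] {p : ℕ} [hp : Fact p.Prime]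

/-- Extension to `S` of a map of a system with `S` normal. -/
theorem exists_aut_of_isNormal_top (hN : F.IsNormal S) {R : Subgroup Ω} {φ : R →* Ω} (hφ : φ ∈ F.Hom R) :
    ∃ α ∈ F.autGroup S, ∀ x : R, ((α ⟨x, (F.le_of_mem hφ).1 x.2⟩ : S) : Ω) = φ x := by
  have hRS : R ≤ S := (F.le_of_mem hφ).1
  obtain ⟨ψ, hψ, hag, -⟩ := hN.2 R φ hφ
  have hψ₀ : ψ.comp (Subgroup.inclusion le_sup_right) ∈ F.Hom S := res_mem hψ le_sup_right
  have hv : ∀ x, (ψ.comp (Subgroup.inclusion le_sup_right)) x ∈ S := map_mem_S hψ₀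
  refine ⟨autOfHom _ (F.injective_of_mem hψ₀) hv, autOfHom_mem hψ₀ hv, fun x => ?_⟩
  rw [autOfHom_coe, ← hag x]
  rfl

/-- **From the normality of `S` and the structure of `Out_F(S)`, a chain.** -/
theorem hasSupChain_of_normal (hS : IsPGroup p S) (hF : F.IsSaturated p) (hN : F.IsNormal S)
    (hH : ∀ H : Subgroup (MulAut S), (Nat.card H).Coprime p → IsMulCommutative H ∧ ∀ g ∈ H, g ^ (p - 1) = 1) :
    HasSupChain F := by
  classical
  haveI : Finite (MulAut S) := inferInstance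
  -- `S` is fully normalized
  have hSn : F.IsFullyNormalized S := by
    refine ⟨le_rfl, fun Q hQ => ?_⟩
    have h1 : normalizerIn S Q ≤ S := normalizerIn_le
    have h2 : normalizerIn S S = S := le_antisymm normalizerIn_le (le_normalizerIn le_rfl)
    rw [h2]
    exact Nat.card_mono (Set.toFinite _) h1
  obtain ⟨R₀, hR₀⟩ := (fullyNormalized_props hS hF hSn).2.2
  let A := F.autGroup S
  have hinn : Inn S ≤ A := inn_le_autGroup le_rfl
  let N : Subgroup A := (Inn S).subgroupOf A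
  haveI hNn : N.Normal := Alperin.inn_subgroupOf_normal S A
  have hNeq : (R₀ : Subgroup A) = N := by
    rw [hR₀]
    have h1 : autInducedBy S S = Inn S := by
      refine le_antisymm ?_ (inn_le_autInducedBy le_rfl)
      rw [autInducedBy, Subgroup.closure_le]
      rintro α ⟨g, hg, hα⟩
      refine ⟨⟨g, hg⟩, ?_⟩
      ext x
      exact (hα x).symm
    rw [h1]
  have hNp : IsPGroup p N := by
    rw [← hNeq]
    exact R₀.isPGroup'
  have hidx : ¬ p ∣ N.index := by
    rw [← hNeq]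
    exact R₀.not_dvd_index
  have hcop : (Nat.card N).Coprime N.index := by
    obtain ⟨k, hk⟩ := IsPGroup.iff_card.1 hNp
    rw [hk]
    exact Nat.Coprime.pow_left k ((Nat.Prime.coprime_iff_not_dvd hp.out).2 hidx)
  obtain ⟨K, hK⟩ := Subgroup.exists_right_complement'_of_coprime hcop
  let H : Subgroup (MulAut S) := K.map A.subtype
  have hHA : H ≤ A := Subgroup.map_subtype_le K
  have hcardH : Nat.card H = N.index := by
    have h1 : Nat.card H = Nat.card K :=
      Nat.card_congr (K.equivMapOfInjective A.subtype A.subtype_injective).symm.toEquiv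
    rw [h1]
    exact hK.symm.index_eq_card.symm
  have hHc : (Nat.card H).Coprime p := by
    rw [hcardH]
    exact ((Nat.Prime.coprime_iff_not_dvd hp.out).2 hidx).symm
  obtain ⟨hHcomm, hHpow⟩ := hH H hHc
  have hcomm : ∀ h ∈ H, ∀ k ∈ H, h * k = k * h := by
    intro h hh k hk
    have := hHcomm.is_comm.comm ⟨h, hh⟩ ⟨k, hk⟩
    exact congrArg Subtype.val this
  have hconj : ∀ g : S, MulAut.conj g ∈ A := fun g => hinn ⟨g, rfl⟩
  have hdec : ∀ a ∈ A, ∃ g : S, ∃ h ∈ H, a = MulAut.conj g * h := by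
    intro a ha
    obtain ⟨⟨⟨n, hn⟩, ⟨k, hk⟩⟩, hnk⟩ := hK.2 ⟨a, ha⟩
    obtain ⟨g, hg⟩ := hn
    refine ⟨g, k.1, ⟨k, hk, rfl⟩, ?_⟩
    have h1 := congrArg Subtype.val hnk
    have h2 : a = n.1 * k.1 := h1.symm
    have hg' : MulAut.conj g = n.1 := hg
    rw [h2, hg']
  obtain ⟨D, m, h0, hm, hinv, hst⟩ := exists_chain hS hHA hconj hdec hcomm hHpow ⊥ (by
    intro a _ x hx
    rw [Subgroup.mem_bot] at hx ⊢
    rw [hx, map_one])
  -- the chain in `Ω`
  have hmapS : ∀ i, (D i).map S.subtype ≤ S := fun i => Subgroup.map_subtype_le _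
  refine IsSupChain.hasSupChain (c := fun j => (D j).map S.subtype) (m := m) ⟨?_, ?_, ?_, ?_⟩
  · show (D 0).map S.subtype = ⊥
    rw [h0, Subgroup.map_bot]
  · show (D m).map S.subtype = S
    rw [hm, ← MonoidHom.range_eq_map, Subgroup.range_subtype]
  · intro i hi
    refine ⟨hmapS i, fun R hR φ hφ x => ?_⟩
    obtain ⟨α, hα, hαx⟩ := exists_aut_of_isNormal_top hN hφ
    rw [← hαx x]
    obtain ⟨y, hy, hyx⟩ := hR x.2
    have h1 : (⟨x, (F.le_of_mem hφ).1 x.2⟩ : S) = y := Subtype.ext hyx.symm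
    rw [h1]
    exact ⟨_, hinv i hi α hα y hy, rfl⟩
  · intro i hi
    obtain ⟨hle, x, hx⟩ := hst i hi
    refine ⟨Subgroup.map_mono hle, x.1, x.2, ?_⟩
    show (D (i + 1)).map S.subtype = (D i).map S.subtype ⊔ Subgroup.zpowers x.1
    rw [hx, Subgroup.map_sup, MonoidHom.map_zpowers]
    rfl

/-- **The supersoluble criterion**: every saturated fusion system over `S` is supersoluble iff `S` is resistant and
every `p'`-subgroup of `Aut(S)` is abelian of exponent dividing `p - 1`. -/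
theorem forall_hasSupChain_iff (hS : IsPGroup p S) :
    (∀ F : FusionSystem S, F.IsSaturated p → HasSupChain F) ↔
      (∀ F : FusionSystem S, F.IsSaturated p → F.IsNormal S) ∧
        ∀ H : Subgroup (MulAut S), (Nat.card H).Coprime p → IsMulCommutative H ∧ ∀ g ∈ H, g ^ (p - 1) = 1 := by
  constructor
  · intro h
    refine ⟨fun F hF => ?_, comm_and_pow_of_forall hS h⟩
    obtain ⟨c, m, hc⟩ := (h F hF).exists_nat
    exact isNormal_top_of_supChain hS hF hc
  · rintro ⟨h1, h2⟩ F hF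
    exact hasSupChain_of_normal hS hF (h1 F hF) h2

end Fusion

end Cfsg.Agent.Lib.Fusion.Super.Backward
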