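/-
Abelian `p`-groups of supersoluble type: those with pairwise distinct invariants.
-/
import Mathlib
import Cfsg.Agent.Lib.Fusion.Super.Backward

set_option autoImplicit false
set_option linter.style.haveILetI false
set_option linter.unusedSectionVars false

namespace Cfsg.Agent.Lib.Fusion.Super.Abelian

open Cfsg Cfsg.FusionSystem Cfsg.Agent.Lib.Fusion.Basic Cfsg.Agent.Lib.Fusion.Super.Section
  Cfsg.Agent.Lib.Fusion.Super.Forward Cfsg.Agent.Lib.Fusion.Super.Backward Cfsg.Agent.Lib.Fusion.Resist.GL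
  Cfsg.Agent.Lib.PGroup
open scoped commutatorElement

section Model

variable {p : ℕ} [hp : Fact p.Prime]

/-- The structure theorem, for abelian `p`-groups. -/
theorem exists_prod_zmod_pow {P : Type*} [Group P] [Finite P] (hc : ∀ a b : P, a * b = b * a)
    (hP : IsPGroup p P) :
    ∃ (ι : Type) (_ : Fintype ι) (e : ι → ℕ), (∀ i, 0 < e i) ∧
      Nonempty (P ≃* ((i : ι) → Multiplicative (ZMod (p ^ e i)))) := by
  classical
  letI : CommGroup P := { ‹Group P› with mul_comm := hc }
  obtain ⟨ι, hι, n, hn, ⟨f⟩⟩ := CommGroup.equiv_prod_multiplicative_zmod_of_finite P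
  have hpow : ∀ i, ∃ m, n i = p ^ m := by
    intro i
    haveI : NeZero (n i) := ⟨by have := hn i; omega⟩
    let π : P →* Multiplicative (ZMod (n i)) := (Pi.evalMonoidHom _ i).comp f.toMonoidHom
    have hsurj : Function.Surjective π := by
      intro y
      refine ⟨f.symm (Pi.mulSingle i y), ?_⟩
      show (f (f.symm (Pi.mulSingle i y))) i = y
      rw [f.apply_symm_apply, Pi.mulSingle_eq_same]
    have h1 := hP.of_surjective π hsurj
    obtain ⟨m, hm⟩ := IsPGroup.iff_card.1 h1
    refine ⟨m, ?_⟩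
    rw [← hm]
    exact (Nat.card_zmod (n i)).symm
  choose e he using hpow
  have hne : n = fun i => p ^ e i := funext he
  subst hne
  refine ⟨ι, hι, e, fun i => ?_, ⟨f⟩⟩
  by_contra h
  have h0 : e i = 0 := by omega
  have := hn i
  simp [h0] at this

theorem pow_eq_one_of_le {a k : ℕ} (h : a ≤ k) (x : Multiplicative (ZMod (p ^ a))) : x ^ p ^ k = 1 := by
  haveI : NeZero (p ^ a) := ⟨pow_ne_zero _ hp.out.ne_zero⟩
  have h1 : x ^ Nat.card (Multiplicative (ZMod (p ^ a))) = 1 := pow_card_eq_one'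
  have h2 : Nat.card (Multiplicative (ZMod (p ^ a))) = p ^ a := Nat.card_zmod (p ^ a)
  rw [h2] at h1
  have h3 : orderOf x ∣ p ^ k := (orderOf_dvd_of_pow_eq_one h1).trans (pow_dvd_pow p h)
  exact orderOf_dvd_iff_pow_eq_one.1 h3

theorem exists_pow_eq_of_lt {a k : ℕ} (h : k + 2 ≤ a) (x : Multiplicative (ZMod (p ^ a)))
    (hx : x ^ p ^ (k + 1) = 1) : ∃ w : Multiplicative (ZMod (p ^ a)), x = w ^ p := by
  haveI : NeZero (p ^ a) := ⟨pow_ne_zero _ hp.out.ne_zero⟩
  set b : ZMod (p ^ a) := Multiplicative.toAdd x with hb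
  have h1 : (p ^ (k + 1)) • b = 0 := by
    have := congrArg Multiplicative.toAdd hx
    simpa using this
  have hbval : ((b.val : ℕ) : ZMod (p ^ a)) = b := ZMod.natCast_zmod_val b
  have h2 : (((p ^ (k + 1) * b.val : ℕ)) : ZMod (p ^ a)) = 0 := by
    rw [Nat.cast_mul, hbval, ← nsmul_eq_mul]
    exact h1
  rw [ZMod.natCast_eq_zero_iff] at h2
  have h3 : p ^ (k + 1) * p ^ (a - (k + 1)) ∣ p ^ (k + 1) * b.val := by
    rw [← pow_add, Nat.add_sub_cancel' (by omega)]
    exact h2
  have h4 : p ^ (a - (k + 1)) ∣ b.val := Nat.dvd_of_mul_dvd_mul_left (pow_pos hp.out.pos _) h3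
  have h5 : p ∣ b.val := (dvd_pow_self p (by omega)).trans h4
  obtain ⟨c, hc⟩ := h5
  refine ⟨Multiplicative.ofAdd (c : ZMod (p ^ a)), ?_⟩
  rw [← ofAdd_nsmul]
  apply Multiplicative.toAdd.injective
  show b = _
  rw [← hbval, hc]
  simp

/-- The lifting property for each layer. -/
def HasLProp (P : Type*) [Group P] (p : ℕ) : Prop :=
  ∀ k : ℕ, ∃ g : P, g ^ p ^ (k + 1) = 1 ∧ ∀ x : P, x ^ p ^ (k + 1) = 1 →
    ∃ y w : P, ∃ m : ℕ, y ^ p ^ k = 1 ∧ x = y * w ^ p * g ^ m

theorem hasLProp_of_equiv {P Q : Type*} [Group P] [Group Q] (f : P ≃* Q) (h : HasLProp Q p) : HasLProp P p := by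
  intro k
  obtain ⟨g, hg, hL⟩ := h k
  refine ⟨f.symm g, by rw [← map_pow, hg, map_one], fun x hx => ?_⟩
  obtain ⟨y, w, m, hy, he⟩ := hL (f x) (by rw [← map_pow, hx, map_one])
  refine ⟨f.symm y, f.symm w, m, by rw [← map_pow, hy, map_one], ?_⟩
  apply f.injective
  rw [he]
  simp

theorem hasLProp_of_injective {ι : Type*} [Fintype ι] {e : ι → ℕ} (he : ∀ i j, e i = e j → i = j) :
    HasLProp ((i : ι) → Multiplicative (ZMod (p ^ e i))) p := by
  classical
  intro k
  -- the general decomposition of `x`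
  have hdec : ∀ x : (i : ι) → Multiplicative (ZMod (p ^ e i)), x ^ p ^ (k + 1) = 1 →
      ∃ y w : (i : ι) → Multiplicative (ZMod (p ^ e i)), y ^ p ^ k = 1 ∧
        (∀ i, e i ≤ k → y i = x i ∧ w i = 1) ∧ (∀ i, k + 2 ≤ e i → y i = 1 ∧ (w i) ^ p = x i) ∧
        (∀ i, e i = k + 1 → y i = 1 ∧ w i = 1) := by
    intro x hx
    have hxi : ∀ i, (x i) ^ p ^ (k + 1) = 1 := fun i => congrFun hx i
    have hw : ∀ i, ∃ w : Multiplicative (ZMod (p ^ e i)),
        (k + 2 ≤ e i → w ^ p = x i) ∧ (¬ k + 2 ≤ e i → w = 1) := by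
      intro i
      by_cases h : k + 2 ≤ e i
      · obtain ⟨w, hw⟩ := exists_pow_eq_of_lt h (x i) (hxi i)
        exact ⟨w, fun _ => hw.symm, fun h' => absurd h h'⟩
      · exact ⟨1, fun h' => absurd h' h, fun _ => rfl⟩
    choose w hw1 hw2 using hw
    refine ⟨fun i => if e i ≤ k then x i else 1, w, ?_, ?_, ?_, ?_⟩
    · funext i
      show (if e i ≤ k then x i else 1) ^ p ^ k = 1
      split_ifs with h
      · exact pow_eq_one_of_le h _
      · exact one_pow _
    · intro i hi
      refine ⟨if_pos hi, hw2 i (by omega)⟩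
    · intro i hi
      refine ⟨if_neg (by omega), hw1 i hi⟩
    · intro i hi
      refine ⟨if_neg (by omega), hw2 i (by omega)⟩
  by_cases h : ∃ i₀, e i₀ = k + 1
  · obtain ⟨i₀, hi₀⟩ := h
    refine ⟨Pi.mulSingle i₀ (Multiplicative.ofAdd 1), ?_, fun x hx => ?_⟩
    · rw [← Pi.mulSingle_pow, pow_eq_one_of_le (le_of_eq hi₀), Pi.mulSingle_one]
    · obtain ⟨y, w, hy, h1, h2, h3⟩ := hdec x hx
      haveI : NeZero (p ^ e i₀) := ⟨pow_ne_zero _ hp.out.ne_zero⟩
      refine ⟨y, w, (Multiplicative.toAdd (x i₀)).val, hy, ?_⟩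
      rw [← Pi.mulSingle_pow]
      funext i
      simp only [Pi.mul_apply, Pi.pow_apply]
      by_cases hii : i = i₀
      · subst hii
        rw [Pi.mulSingle_eq_same]
        obtain ⟨h4, h5⟩ := h3 i hi₀
        rw [h4, h5, one_pow, one_mul, one_mul, ← ofAdd_nsmul]
        apply Multiplicative.toAdd.injective
        simp
      · rw [Pi.mulSingle_eq_of_ne hii, mul_one]
        have hne : e i ≠ k + 1 := fun h' => hii (he _ _ (h'.trans hi₀.symm))
        rcases Nat.lt_or_ge (e i) (k + 1) with h' | h'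
        · obtain ⟨h4, h5⟩ := h1 i (by omega)
          rw [h4, h5, one_pow, mul_one]
        · obtain ⟨h4, h5⟩ := h2 i (by omega)
          rw [h4, h5, one_mul]
  · refine ⟨1, one_pow _, fun x hx => ?_⟩
    obtain ⟨y, w, hy, h1, h2, -⟩ := hdec x hx
    refine ⟨y, w, 0, hy, ?_⟩
    rw [pow_zero, mul_one]
    funext i
    show x i = y i * (w i) ^ p
    have hne : e i ≠ k + 1 := fun h' => h ⟨i, h'⟩
    rcases Nat.lt_or_ge (e i) (k + 1) with h' | h'
    · obtain ⟨h4, h5⟩ := h1 i (by omega)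
      rw [h4, h5, one_pow, mul_one]
    · obtain ⟨h4, h5⟩ := h2 i (by omega)
      rw [h4, h5, one_mul]

end Model

section Layers

variable {P : Type*} [Group P] {p : ℕ}

/-- `Ω_k(P)`, for abelian `P`. -/
def omegaK (hc : ∀ a b : P, a * b = b * a) (p k : ℕ) : Subgroup P where
  carrier := {x | x ^ p ^ k = 1}
  one_mem' := one_pow _
  mul_mem' := by
    intro a b ha hb
    show (a * b) ^ p ^ k = 1
    have h : Commute a b := hc a b
    rw [h.mul_pow, show a ^ p ^ k = 1 from ha, show b ^ p ^ k = 1 from hb, one_mul]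
  inv_mem' := by
    intro a ha
    show a⁻¹ ^ p ^ k = 1
    rw [inv_pow, show a ^ p ^ k = 1 from ha, inv_one]

/-- The layers `Ω_k(P) Φ(P)`. -/
def layer (hc : ∀ a b : P, a * b = b * a) (p k : ℕ) : Subgroup P := omegaK hc p k ⊔ frattini P

theorem layer_inv (hc : ∀ a b : P, a * b = b * a) (k : ℕ) (a : MulAut P) {x : P} (hx : x ∈ layer hc p k) :
    a x ∈ layer hc p k := by
  have hle : layer hc p k ≤ (layer hc p k).comap a.toMonoidHom := by
    refine sup_le ?_ ?_
    · intro y hy
      refine (le_sup_left : omegaK hc p k ≤ _) ?_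
      show (a y) ^ p ^ k = 1
      rw [← map_pow, show y ^ p ^ k = 1 from hy, map_one]
    · intro y hy
      exact (le_sup_right : frattini P ≤ _) ((ActionFrattini.char_mem (frattini P) a).2 hy)
  exact hle hx

theorem layer_mono (hc : ∀ a b : P, a * b = b * a) (k : ℕ) : layer hc p k ≤ layer hc p (k + 1) := by
  refine sup_le_sup_right ?_ _
  intro x hx
  show x ^ p ^ (k + 1) = 1
  rw [pow_succ, pow_mul, show x ^ p ^ k = 1 from hx, one_pow]

variable [Finite P] [hp : Fact p.Prime]

theorem layer_step (hc : ∀ a b : P, a * b = b * a) (hP : IsPGroup p P) (hL : HasLProp P p) (k : ℕ) :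
    ∃ g : P, layer hc p (k + 1) = layer hc p k ⊔ Subgroup.zpowers g := by
  obtain ⟨g, hg, hL'⟩ := hL k
  refine ⟨g, le_antisymm ?_ (sup_le (layer_mono hc k) ?_)⟩
  · refine sup_le ?_ ((le_sup_right : frattini P ≤ layer hc p k).trans le_sup_left)
    intro x hx
    obtain ⟨y, w, m, hy, rfl⟩ := hL' x hx
    refine mul_mem (mul_mem ?_ ?_) ?_
    · exact (le_sup_left : layer hc p k ≤ _) ((le_sup_left : omegaK hc p k ≤ _) hy)
    · exact (le_sup_left : layer hc p k ≤ _) ((le_sup_right : frattini P ≤ _)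
        (Basic.pow_mem_frattini hP w))
    · exact (le_sup_right : Subgroup.zpowers g ≤ _) (pow_mem (Subgroup.mem_zpowers g) m)
  · rw [Subgroup.zpowers_le]
    exact (le_sup_left : omegaK hc p (k + 1) ≤ _) hg

theorem layer_zero (hc : ∀ a b : P, a * b = b * a) : layer hc p 0 = frattini P := by
  have h : omegaK hc p 0 = ⊥ := by
    ext x
    rw [Subgroup.mem_bot]
    show x ^ p ^ 0 = 1 ↔ _
    simp
  rw [layer, h, bot_sup_eq]

theorem exists_layer_top (hc : ∀ a b : P, a * b = b * a) (hP : IsPGroup p P) :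
    ∃ m, layer hc p m = ⊤ := by
  obtain ⟨m, hm⟩ := IsPGroup.iff_card.1 hP
  refine ⟨m, eq_top_iff.2 fun x _ => (le_sup_left : omegaK hc p m ≤ _) ?_⟩
  show x ^ p ^ m = 1
  rw [← hm]
  exact pow_card_eq_one'

/-- A `p'`-automorphism stabilizing the layers is trivial. -/
theorem eq_one_of_stab_layers (hc : ∀ a b : P, a * b = b * a) (hP : IsPGroup p P) {m : ℕ}
    (hm : layer hc p m = ⊤) {γ : MulAut P}
    (hγ : ∀ k < m, ∀ x ∈ layer hc p (k + 1), x⁻¹ * γ x ∈ layer hc p k) (hco : (orderOf γ).Coprime p) :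
    γ = 1 := by
  classical
  obtain ⟨V, _, _, π, hπ, hker⟩ := FrattiniBasis.exists_vector_space hP
  haveI : Finite V := by
    have hs : Function.Surjective (fun x : P => Multiplicative.toAdd (π x)) := by
      intro v
      obtain ⟨x, hx⟩ := hπ (Multiplicative.ofAdd v)
      exact ⟨x, by simp [hx]⟩
    exact Finite.of_surjective _ hs
  have hπΦ : ∀ x, π x = 1 ↔ x ∈ frattini P := fun x => by
    rw [← hker, MonoidHom.mem_ker]
  let ρ := frattGL (p := p) π hπ hker
  have key : ∀ k ≤ m, ∀ x ∈ layer hc p k, π (γ x) = π x := by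
    intro k
    induction k with
    | zero =>
      intro _ x hx
      rw [layer_zero] at hx
      rw [(hπΦ x).2 hx, (hπΦ _).2 ((ActionFrattini.char_mem (frattini P) γ).2 hx)]
    | succ k ih =>
      intro hk x hx
      have h1 := hγ k (by omega) x hx
      set n := x⁻¹ * γ x with hn
      have h2 := ih (by omega) n h1
      have h3 : γ x = x * n := by rw [hn]; group
      set u := Multiplicative.toAdd (π n) with hu
      set v := Multiplicative.toAdd (π x) with hv
      have hρu : ρ γ u = u := by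
        have := frattGL_apply (p := p) π hπ hker γ n
        rw [h2] at this
        exact this
      have hρv : ρ γ v = v + (1 : ZMod p) • u := by
        have := frattGL_apply (p := p) π hπ hker γ x
        rw [h3, map_mul] at this
        rw [one_smul]
        exact this
      have h4 := pow_apply_add_smul (ρ γ) hρu hρv (orderOf γ)
      rw [← map_pow, pow_orderOf_eq_one, map_one] at h4
      have h5 : v = v + (((orderOf γ : ℕ) : ZMod p) * 1) • u := h4
      have h6 : ((orderOf γ : ℕ) : ZMod p) • u = 0 := by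
        rw [mul_one] at h5
        exact (add_eq_left.1 h5.symm)
      have h7 : ((orderOf γ : ℕ) : ZMod p) ≠ 0 := by
        rw [Ne, ZMod.natCast_eq_zero_iff]
        intro hd
        have := Nat.Coprime.eq_one_of_dvd hco.symm hd
        exact hp.out.one_lt.ne' this
      have h8 : u = 0 := by
        have := (smul_eq_zero.1 h6)
        rcases this with h | h
        · exact absurd h h7
        · exact h
      have h9 : π n = 1 := Multiplicative.toAdd.injective h8
      rw [h3, map_mul, h9, mul_one]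
  have h1 : ρ γ = 1 := by
    rw [frattGL_eq_one_iff]
    intro x
    refine key m le_rfl x ?_
    rw [hm]
    trivial
  exact eq_one_of_frattGL_eq_one hP π hπ hker h1 (pow_orderOf_eq_one γ) hco

/-- With the lifting property, the `p'`-subgroups of `Aut(P)` are abelian of exponent dividing `p - 1`. -/
theorem comm_and_pow_of_L (hc : ∀ a b : P, a * b = b * a) (hP : IsPGroup p P) (hL : HasLProp P p)
    (H : Subgroup (MulAut P)) (hH : (Nat.card H).Coprime p) :
    IsMulCommutative H ∧ ∀ g ∈ H, g ^ (p - 1) = 1 := by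
  classical
  obtain ⟨m, hm⟩ := exists_layer_top hc hP
  have hord : ∀ g ∈ H, (orderOf g).Coprime p := by
    intro g hg
    have h1 : orderOf g ∣ Nat.card H := by
      have := orderOf_dvd_natCard (⟨g, hg⟩ : H)
      rwa [Subgroup.orderOf_mk] at this
    exact Nat.Coprime.coprime_dvd_left h1 hH
  let A : Subgroup (MulAut P) := ⊤
  have hW : ∀ k, ∀ a ∈ A, ∀ x ∈ layer hc p k, a x ∈ layer hc p k :=
    fun k a _ x hx => layer_inv hc k a hx
  have hnorm : ∀ k, ((layer hc p k).subgroupOf (layer hc p (k + 1))).Normal := by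
    intro k
    refine ⟨fun n hn g => ?_⟩
    have : g * n * g⁻¹ = n := by
      apply Subtype.ext
      show (g : P) * n * (g : P)⁻¹ = n
      rw [hc (g : P) n, mul_assoc, mul_inv_cancel, mul_one]
    rw [this]
    exact hn
  have hcyc : ∀ k, IsCyclic (layer hc p (k + 1) ⧸ (layer hc p k).subgroupOf (layer hc p (k + 1))) := by
    intro k
    obtain ⟨g, hg⟩ := layer_step hc hP hL k
    haveI := hnorm k
    refine isCyclic_sup_quot hg ?_
    rw [Subgroup.mem_normalizer_iff]
    intro n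
    have : g * n * g⁻¹ = n := by
      rw [hc g n, mul_assoc, mul_inv_cancel, mul_one]
    rw [this]
  constructor
  · refine ⟨⟨fun x y => ?_⟩⟩
    have hH' : ⁅x.1, y.1⁆ ∈ H := H.mul_mem (H.mul_mem (H.mul_mem x.2 y.2) (H.inv_mem x.2)) (H.inv_mem y.2)
    have h1 : ⁅x.1, y.1⁆ = 1 := by
      refine eq_one_of_stab_layers hc hP hm (fun k _ z hz => ?_) (hord _ hH')
      haveI := hnorm k
      haveI := hcyc k
      exact comm_stab (A := A) (hW (k + 1)) (hW k) (⟨x.1, trivial⟩ : A) (⟨y.1, trivial⟩ : A) hz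
    apply Subtype.ext
    exact commutatorElement_eq_one_iff_mul_comm.1 h1
  · intro g hg
    refine eq_one_of_stab_layers hc hP hm (fun k _ z hz => ?_)
      (Nat.Coprime.coprime_dvd_left (orderOf_pow_dvd _) (hord g hg))
    haveI := hnorm k
    haveI := hcyc k
    have hC : IsPGroup p (layer hc p (k + 1) ⧸ (layer hc p k).subgroupOf (layer hc p (k + 1))) :=
      IsPGroup.to_quotient (hP.to_subgroup _) _
    have hord' : orderOf (⟨g, Subgroup.mem_top g⟩ : A) = orderOf g := Subgroup.orderOf_mk g _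
    exact pow_stab (A := A) (hW (k + 1)) (hW k) hC (a := ⟨g, Subgroup.mem_top g⟩) (by
      rw [hord']
      exact hord g hg) hz

end Layers

section Repeated

variable {C H : Type*} [CommGroup C] [CommGroup H]

/-- `(a, b, h) ↦ (b, a⁻¹, h)`. -/
def autRot : MulAut ((C × C) × H) where
  toFun x := ((x.1.2, x.1.1⁻¹), x.2)
  invFun x := ((x.1.2⁻¹, x.1.1), x.2)
  left_inv x := by simp
  right_inv x := by simp
  map_mul' x y := by
    ext <;> simp [mul_comm]

/-- `(a, b, h) ↦ (a⁻¹, b, h)`. -/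
def autI : MulAut ((C × C) × H) where
  toFun x := ((x.1.1⁻¹, x.1.2), x.2)
  invFun x := ((x.1.1⁻¹, x.1.2), x.2)
  left_inv x := by simp
  right_inv x := by simp
  map_mul' x y := by
    ext <;> simp [mul_comm]

/-- `(a, b, h) ↦ (b⁻¹, a b⁻¹, h)`. -/
def autTheta : MulAut ((C × C) × H) where
  toFun x := ((x.1.2⁻¹, x.1.1 * x.1.2⁻¹), x.2)
  invFun x := ((x.1.1⁻¹ * x.1.2, x.1.1⁻¹), x.2)
  left_inv x := by
    ext <;> simp
  right_inv x := by
    ext <;> simp
  map_mul' x y := by
    ext <;> simp <;> ac_rfl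

theorem autRot_pow_four : (autRot : MulAut ((C × C) × H)) ^ 4 = 1 := by
  ext x <;> simp [autRot, pow_succ]

theorem autI_sq : (autI : MulAut ((C × C) × H)) ^ 2 = 1 := by
  ext x <;> simp [autI, pow_succ]

theorem autI_conj : (autI : MulAut ((C × C) × H)) * autRot * autI⁻¹ = autRot⁻¹ := by
  ext x <;> first | rfl | exact inv_inv _

theorem autTheta_pow_three : (autTheta : MulAut ((C × C) × H)) ^ 3 = 1 := by
  ext x <;> simp [autTheta, pow_succ]

end Repeated

/-- A group generated by `ρ`, `ι` with `ρ ^ 4 = ι ^ 2 = 1` and `ι` inverting `ρ` is a `2`-group. -/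
theorem isPGroup_closure_of_inverting {G : Type*} [Group G] {ρ ι : G} (hρ : ρ ^ 4 = 1) (hι : ι ^ 2 = 1)
    (hinv : ι * ρ * ι⁻¹ = ρ⁻¹) : IsPGroup 2 (Subgroup.closure {ρ, ι}) := by
  have hιi : ι⁻¹ = ι := by
    apply inv_eq_of_mul_eq_one_left
    rw [← pow_two]
    exact hι
  have hconj : ∀ j : ℤ, ι * ρ ^ j = ρ ^ (-j) * ι := by
    intro j
    have h1 : ι * ρ ^ j * ι⁻¹ = (ι * ρ * ι⁻¹) ^ j := (conj_zpow).symm
    rw [hinv, inv_zpow, ← zpow_neg] at h1
    rw [← h1, hιi, mul_assoc, ← pow_two, hι, mul_one]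
  have hform : ∀ x ∈ Subgroup.closure ({ρ, ι} : Set G), (∃ j : ℤ, x = ρ ^ j) ∨ ∃ j : ℤ, x = ρ ^ j * ι := by
    intro x hx
    induction hx using Subgroup.closure_induction with
    | mem x hx =>
      rcases hx with rfl | rfl
      · exact Or.inl ⟨1, (zpow_one _).symm⟩
      · exact Or.inr ⟨0, by simp⟩
    | one => exact Or.inl ⟨0, by simp⟩
    | mul a b _ _ ha hb =>
      rcases ha with ⟨i, rfl⟩ | ⟨i, rfl⟩ <;> rcases hb with ⟨j, rfl⟩ | ⟨j, rfl⟩
      · exact Or.inl ⟨i + j, (zpow_add _ _ _).symm⟩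
      · exact Or.inr ⟨i + j, by rw [zpow_add, mul_assoc]⟩
      · refine Or.inr ⟨i - j, ?_⟩
        rw [mul_assoc, hconj, ← mul_assoc, ← zpow_add, sub_eq_add_neg]
      · refine Or.inl ⟨i - j, ?_⟩
        calc ρ ^ i * ι * (ρ ^ j * ι) = ρ ^ i * (ι * ρ ^ j) * ι := by simp only [mul_assoc]
          _ = ρ ^ i * (ρ ^ (-j) * ι) * ι := by rw [hconj]
          _ = ρ ^ i * ρ ^ (-j) * (ι * ι) := by simp only [mul_assoc]
          _ = ρ ^ (i - j) := by rw [← pow_two, hι, mul_one, ← zpow_add, sub_eq_add_neg]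
    | inv a _ ha =>
      rcases ha with ⟨i, rfl⟩ | ⟨i, rfl⟩
      · exact Or.inl ⟨-i, (zpow_neg _ _).symm⟩
      · refine Or.inr ⟨i, ?_⟩
        rw [mul_inv_rev, hιi, ← zpow_neg, hconj, neg_neg]
  rintro ⟨x, hx⟩
  refine ⟨2, Subtype.ext ?_⟩
  show x ^ 2 ^ 2 = 1
  rcases hform x hx with ⟨j, rfl⟩ | ⟨j, rfl⟩
  · rw [← zpow_natCast, ← zpow_mul, mul_comm, zpow_mul]
    have : ((2 ^ 2 : ℕ) : ℤ) = ((4 : ℕ) : ℤ) := rfl
    rw [this, zpow_natCast, hρ, one_zpow]
  · have h1 : (ρ ^ j * ι) ^ 2 = 1 := by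
      rw [pow_two, mul_assoc, ← mul_assoc ι, hconj, mul_assoc, ← pow_two, hι, mul_one, ← zpow_add,
        add_neg_cancel, zpow_zero]
    have h2 : (2 : ℕ) ^ 2 = 2 * 2 := rfl
    rw [h2, pow_mul, h1, one_pow]

section Final

variable {p : ℕ} [hp : Fact p.Prime]

/-- Transfer of the `p'`-property along an isomorphism. -/
theorem comm_pow_transfer {P X : Type*} [Group P] [Group X] (e : P ≃* X)
    (hall : ∀ H : Subgroup (MulAut P), (Nat.card H).Coprime p → IsMulCommutative H ∧ ∀ g ∈ H, g ^ (p - 1) = 1)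
    (H₁ : Subgroup (MulAut X)) (hH₁ : (Nat.card H₁).Coprime p) :
    IsMulCommutative H₁ ∧ ∀ g ∈ H₁, g ^ (p - 1) = 1 := by
  let c : MulAut X ≃* MulAut P := MulAut.congr e.symm
  have hcard : Nat.card (H₁.map c.toMonoidHom) = Nat.card H₁ :=
    (Nat.card_congr (H₁.equivMapOfInjective c.toMonoidHom c.injective).toEquiv).symm
  obtain ⟨h1, h2⟩ := hall (H₁.map c.toMonoidHom) (by rwa [hcard])
  constructor
  · refine ⟨⟨fun x y => Subtype.ext ?_⟩⟩
    have h3 := h1.is_comm.comm ⟨c x.1, x.1, x.2, rfl⟩ ⟨c y.1, y.1, y.2, rfl⟩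
    have h4 : c x.1 * c y.1 = c y.1 * c x.1 := congrArg Subtype.val h3
    rw [← map_mul, ← map_mul] at h4
    exact c.injective h4
  · intro g hg
    have h3 := h2 (c g) ⟨g, hg, rfl⟩
    rw [← map_pow] at h3
    exact c.injective (h3.trans (map_one c).symm)

/-- A repeated invariant contradicts the `p'`-property. -/
theorem false_of_repeated {P : Type*} [Group P] [Finite P] {n : ℕ} (hn : 0 < n) {H : Type*} [CommGroup H]
    (e : P ≃* (Multiplicative (ZMod (p ^ n)) × Multiplicative (ZMod (p ^ n))) × H)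
    (hall : ∀ H : Subgroup (MulAut P), (Nat.card H).Coprime p → IsMulCommutative H ∧ ∀ g ∈ H, g ^ (p - 1) = 1) :
    False := by
  classical
  let C := Multiplicative (ZMod (p ^ n))
  let X := (C × C) × H
  haveI : Finite X := Finite.of_equiv _ e.toEquiv
  have htr := comm_pow_transfer e hall
  have hp1 : 1 < p ^ n := Nat.one_lt_pow (by omega) hp.out.one_lt
  haveI : Fact (1 < p ^ n) := ⟨hp1⟩
  let g : C := Multiplicative.ofAdd 1
  have hg1 : g ≠ 1 := by
    intro h
    have h1 : (1 : ZMod (p ^ n)) = 0 := congrArg Multiplicative.toAdd h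
    exact one_ne_zero h1
  by_cases hp2 : p = 2
  · -- `p = 2`: an automorphism of order `3`
    subst hp2
    let θ : MulAut X := autTheta
    have hθ3 : θ ^ 3 = 1 := autTheta_pow_three
    have hcard : (Nat.card (Subgroup.zpowers θ)).Coprime 2 := by
      rw [Nat.card_zpowers]
      have h1 : orderOf θ ∣ 3 := orderOf_dvd_of_pow_eq_one hθ3
      exact Nat.Coprime.coprime_dvd_left h1 (by norm_num)
    obtain ⟨-, h2⟩ := htr _ hcard
    have h3 := h2 θ (Subgroup.mem_zpowers θ)
    rw [show 2 - 1 = 1 from rfl, pow_one] at h3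
    have h4 := congrArg (fun f : MulAut X => ((f ((g, 1), 1)).1.1 : C)) h3
    have h5 : (1 : C)⁻¹ = g := h4
    rw [inv_one] at h5
    exact hg1 h5.symm
  · -- `p` odd: a nonabelian `2`-group
    have hodd : Nat.Coprime 2 p := by
      rw [Nat.coprime_primes Nat.prime_two hp.out]
      exact fun h => hp2 h.symm
    let ρ : MulAut X := autRot
    let ι : MulAut X := autI
    have hPG := isPGroup_closure_of_inverting (ρ := ρ) (ι := ι) autRot_pow_four autI_sq autI_conj
    have hcard : (Nat.card (Subgroup.closure ({ρ, ι} : Set (MulAut X)))).Coprime p := by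
      obtain ⟨k, hk⟩ := IsPGroup.iff_card.1 hPG
      rw [hk]
      exact Nat.Coprime.pow_left k hodd
    obtain ⟨h1, -⟩ := htr _ hcard
    have h2 := h1.is_comm.comm
      ⟨ρ, Subgroup.subset_closure (Set.mem_insert _ _)⟩
      ⟨ι, Subgroup.subset_closure (Set.mem_insert_of_mem _ rfl)⟩
    have h3 : ρ * ι = ι * ρ := congrArg Subtype.val h2
    have h4 := congrArg (fun f : MulAut X => ((f ((g, 1), 1)).1.2 : C)) h3
    have h5 : g⁻¹⁻¹ = g⁻¹ := h4
    rw [inv_inv] at h5
    -- `g = g⁻¹` is impossible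
    have h6 : g ^ 2 = 1 := by
      rw [pow_two]
      nth_rewrite 1 [h5]
      exact inv_mul_cancel g
    have h7 : ((2 : ℕ) : ZMod (p ^ n)) = 0 := by
      have h' : (2 : ℕ) • (1 : ZMod (p ^ n)) = 0 := congrArg Multiplicative.toAdd h6
      rwa [nsmul_one] at h'
    rw [ZMod.natCast_eq_zero_iff] at h7
    have h8 : p ∣ 2 := (dvd_pow_self p (by omega)).trans h7
    have h9 := (Nat.prime_dvd_prime_iff_eq hp.out Nat.prime_two).1 h8
    exact hp2 h9

/-- Two equal invariants split off a homocyclic factor. -/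
theorem exists_split {ι : Type} [Fintype ι] (e : ι → ℕ) {i j : ι} (hij : i ≠ j) (h : e i = e j) :
    Nonempty (((l : ι) → Multiplicative (ZMod (p ^ e l))) ≃*
      (Multiplicative (ZMod (p ^ e i)) × Multiplicative (ZMod (p ^ e i))) ×
        ((l : {l : ι // l ≠ i ∧ l ≠ j}) → Multiplicative (ZMod (p ^ e l.1)))) := by
  classical
  have hcast : ∀ a b : ℕ, a = b → Nonempty (Multiplicative (ZMod (p ^ a)) ≃* Multiplicative (ZMod (p ^ b))) := by
    rintro a _ rfl
    exact ⟨MulEquiv.refl _⟩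
  obtain ⟨c⟩ := hcast (e j) (e i) h.symm
  let f : ((l : ι) → Multiplicative (ZMod (p ^ e l))) →* (Multiplicative (ZMod (p ^ e i)) × Multiplicative (ZMod (p ^ e i))) ×
        ((l : {l : ι // l ≠ i ∧ l ≠ j}) → Multiplicative (ZMod (p ^ e l.1))) :=
    { toFun := fun x => ((x i, c (x j)), fun l => x l.1)
      map_one' := by
        ext <;> simp
      map_mul' := fun x y => by
        ext <;> simp }
  have hinj : Function.Injective f := by
    intro x y hxy
    funext l
    by_cases h1 : l = i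
    · subst h1
      exact congrArg (fun z => z.1.1) hxy
    · by_cases h2 : l = j
      · subst h2
        exact c.injective (congrArg (fun z => z.1.2) hxy)
      · exact congrFun (congrArg (fun z => z.2) hxy) ⟨l, h1, h2⟩
  have hsurj : Function.Surjective f := by
    rintro ⟨⟨a, b⟩, z⟩
    let x₀ : (l : ι) → Multiplicative (ZMod (p ^ e l)) :=
      fun l => if hl : l ≠ i ∧ l ≠ j then z ⟨l, hl⟩ else 1
    refine ⟨Function.update (Function.update x₀ i a) j (c.symm b), ?_⟩
    have h1 : Function.update (Function.update x₀ i a) j (c.symm b) i = a := by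
      rw [Function.update_of_ne hij, Function.update_self]
    have h2 : Function.update (Function.update x₀ i a) j (c.symm b) j = c.symm b := Function.update_self _ _ _
    show ((_, c _), _) = _
    rw [h1, h2, c.apply_symm_apply]
    congr 1
    funext l
    rw [Function.update_of_ne l.2.2, Function.update_of_ne l.2.1]
    show (if hl : l.1 ≠ i ∧ l.1 ≠ j then z ⟨l.1, hl⟩ else 1) = z l
    rw [dif_pos l.2]
  exact ⟨MulEquiv.ofBijective f ⟨hinj, hsurj⟩⟩

variable {Ω : Type*} [Group Ω] {S : Subgroup Ω} [Finite S]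

/-- **Abelian `p`-groups of supersoluble type.** -/
theorem forall_hasSupChain_iff_abelian (hS : IsPGroup p S) (hab : IsMulCommutative S) :
    (∀ F : FusionSystem S, F.IsSaturated p → HasSupChain F) ↔
      ¬ ∃ (n : ℕ) (H : Type) (_ : CommGroup H), 0 < n ∧
        Nonempty (S ≃* (Multiplicative (ZMod (p ^ n)) × Multiplicative (ZMod (p ^ n))) × H) := by
  have hc : ∀ a b : S, a * b = b * a := hab.is_comm.comm
  constructor
  · rintro h ⟨n, H, inst, hn, ⟨e⟩⟩
    exact false_of_repeated hn e (comm_and_pow_of_forall hS h)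
  · intro hno
    rw [forall_hasSupChain_iff hS]
    constructor
    · intro F hF
      have hcl : F.StronglyClosed S :=
        ⟨le_rfl, fun R _ φ hφ x => map_mem_S hφ x⟩
      exact Chain.isNormal_of_abelian hS hF hcl hab
    · obtain ⟨ι, hι, e, hpos, ⟨f⟩⟩ := exists_prod_zmod_pow hc hS
      have hinj : ∀ i j, e i = e j → i = j := by
        intro i j hij
        by_contra hne
        obtain ⟨f'⟩ := exists_split (p := p) e hne hij
        exact hno ⟨e i, _, inferInstance, hpos i, ⟨f.trans f'⟩⟩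
      exact comm_and_pow_of_L hc hS (hasLProp_of_equiv f (hasLProp_of_injective hinj))

end Final

end Cfsg.Agent.Lib.Fusion.Super.Abelian
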