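/-
Elements of `GL₂(q)` generating a quasi-dihedral subgroup: a 2-element of a non-split torus with a field automorphism.
-/
import Mathlib

set_option autoImplicit false
set_option linter.style.haveILetI false
set_option linter.unusedSectionVars false

namespace Cfsg.Agent.Lib.Fusion.Super.QDData

open Matrix
open scoped MatrixGroups

/-- A prime with the exact `2`-part of `q + 1`. -/
theorem exists_prime_data (n : ℕ) (hn : 3 ≤ n) : ∃ q k : ℕ, q.Prime ∧ q + 1 = 2 ^ (n - 1) * (2 * k + 1) := by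
  have hpos : 0 < 2 ^ (n - 1) := by positivity
  have hpn : 2 ^ n = 2 * 2 ^ (n - 1) := by
    rw [← pow_succ']
    congr 1
    omega
  have h4 : 4 ∣ 2 ^ (n - 1) := by
    have : (2:ℕ) ^ (n - 1) = 2 ^ 2 * 2 ^ (n - 3) := by
      rw [← pow_add]
      congr 1
      omega
    rw [this]
    exact Dvd.intro _ rfl
  haveI : NeZero (2 ^ n) := ⟨by positivity⟩
  have hu : IsUnit (((2 ^ (n - 1) - 1 : ℕ)) : ZMod (2 ^ n)) := by
    rw [ZMod.isUnit_iff_coprime]
    apply Nat.Coprime.pow_right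
    rw [Nat.coprime_two_right, Nat.odd_iff]
    omega
  obtain ⟨q, -, hq, he⟩ := Nat.forall_exists_prime_gt_and_eq_mod hu 0
  rw [ZMod.natCast_eq_natCast_iff'] at he
  have hlt : 2 ^ (n - 1) - 1 < 2 ^ n := by omega
  rw [Nat.mod_eq_of_lt hlt] at he
  refine ⟨q, q / 2 ^ n, hq, ?_⟩
  have h1 := Nat.div_add_mod q (2 ^ n)
  rw [he, hpn] at h1
  have h2 : q / (2 * 2 ^ (n - 1)) = q / 2 ^ n := by rw [hpn]
  rw [h2] at h1
  have h3 : 2 ^ (n - 1) * (2 * (q / 2 ^ n) + 1) = 2 * 2 ^ (n - 1) * (q / 2 ^ n) + 2 ^ (n - 1) := by ring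
  omega

section Field

variable {q : ℕ} [hq : Fact q.Prime] {K : Type*} [Field K] [Finite K] [Algebra (ZMod q) K]

local notation "FF" => ZMod q

noncomputable local instance : Fintype K := Fintype.ofFinite K

/-- The Frobenius map of `K`, as a linear map. -/
noncomputable def fr : Module.End FF K := (FiniteField.frobeniusAlgHom FF K).toLinearMap

theorem fr_apply (x : K) : fr (q := q) x = x ^ q := by
  show (FiniteField.frobeniusAlgHom FF K) x = _
  rw [FiniteField.coe_frobeniusAlgHom]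
  simp [ZMod.card]

theorem fr_fr (hc : Nat.card K = q ^ 2) (x : K) : fr (q := q) (fr (q := q) x) = x := by
  rw [fr_apply, fr_apply, ← pow_mul, ← pow_two, ← hc, Nat.card_eq_fintype_card, FiniteField.pow_card]

theorem fr_mul (c x : K) : fr (q := q) (c * x) = c ^ q * fr (q := q) x := by
  rw [fr_apply, fr_apply, mul_pow]

/-- The Frobenius map as a unit of the endomorphism ring. -/
noncomputable def frU (hc : Nat.card K = q ^ 2) : (Module.End FF K)ˣ where
  val := fr
  inv := fr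
  val_inv := by
    ext x
    exact fr_fr hc x
  inv_val := by
    ext x
    exact fr_fr hc x

/-- Multiplications, as units of the endomorphism ring. -/
noncomputable def lmulU : Kˣ →* (Module.End FF K)ˣ := Units.map (Algebra.lmul FF K).toMonoidHom

theorem lmulU_apply (c : Kˣ) (x : K) : ((lmulU (q := q) c : (Module.End FF K)ˣ) : Module.End FF K) x = c * x := rfl

theorem lmulU_injective : Function.Injective (lmulU (q := q) (K := K)) := by
  intro a b hab
  have h1 := congrArg (fun u : (Module.End FF K)ˣ => (u : Module.End FF K) 1) hab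
  simp only [lmulU_apply, mul_one] at h1
  exact Units.ext h1

theorem frU_sq (hc : Nat.card K = q ^ 2) : frU (q := q) (K := K) hc ^ 2 = 1 := by
  ext x
  rw [pow_two]
  exact fr_fr hc x

theorem frU_conj (hc : Nat.card K = q ^ 2) (c : Kˣ) :
    frU (q := q) hc * lmulU c * (frU (q := q) hc)⁻¹ = lmulU (c ^ q) := by
  rw [mul_inv_eq_iff_eq_mul]
  ext x
  show fr (q := q) (c * x) = ((c ^ q : Kˣ) : K) * fr (q := q) x
  rw [fr_mul, Units.val_pow_eq_pow_val]

theorem exists_order (n k : ℕ) (hn : 3 ≤ n) (hk : q + 1 = 2 ^ (n - 1) * (2 * k + 1))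
    (hc : Nat.card K = q ^ 2) : ∃ y : Kˣ, orderOf y = 2 ^ n ∧ ∃ g : Kˣ, g ^ q ≠ g := by
  have h4 : 2 ∣ 2 ^ (n - 1) := dvd_pow_self 2 (by omega)
  have hpos : 0 < 2 ^ (n - 1) := by positivity
  have hpn : 2 ^ n = 2 * 2 ^ (n - 1) := by
    rw [← pow_succ']
    congr 1
    omega
  obtain ⟨w, hw⟩ : ∃ w, q = 2 * w + 1 := by
    obtain ⟨d, hd⟩ := h4
    refine ⟨d * (2 * k + 1) - 1, ?_⟩
    have hd0 : 0 < d := by
      rcases Nat.eq_zero_or_pos d with rfl | h
      · omega
      · exact h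
    have h5 : 0 < d * (2 * k + 1) := by positivity
    rw [hd] at hk
    have h6 : 2 * d * (2 * k + 1) = 2 * (d * (2 * k + 1)) := by ring
    omega
  have hw0 : 0 < w := by
    rcases Nat.eq_zero_or_pos w with rfl | h
    · exact absurd hw (by simpa using hq.out.ne_one)
    · exact h
  have hcard : Nat.card Kˣ = 2 ^ n * (w * (2 * k + 1)) := by
    rw [Nat.card_units, hc]
    have h1 : q ^ 2 = (q + 1) * (2 * w) + 1 := by
      rw [hw]
      ring
    rw [h1, hk, hpn]
    simp only [Nat.add_sub_cancel]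
    ring
  obtain ⟨g, hg⟩ := IsCyclic.exists_ofOrder_eq_natCard (α := Kˣ)
  have hodd0 : w * (2 * k + 1) ≠ 0 := by positivity
  refine ⟨g ^ (w * (2 * k + 1)), ?_, g, ?_⟩
  · rw [orderOf_pow_of_dvd hodd0 (by rw [hg, hcard]; exact Dvd.intro_left _ rfl), hg, hcard]
    exact Nat.mul_div_cancel _ (by positivity)
  · intro hcon
    have h1 : g ^ (2 * w) = 1 := by
      have h2 : g ^ (2 * w) * g = g := by
        rw [← pow_succ, ← hw]
        exact hcon
      simpa using h2
    have h2 := orderOf_dvd_of_pow_eq_one h1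
    rw [hg, hcard] at h2
    have h3 := Nat.le_of_dvd (by positivity) h2
    have h5 : 2 ^ n = 2 * 2 ^ (n - 1) := hpn
    have h6 : 4 ≤ 2 ^ n := by
      calc 4 = 2 ^ 2 := by norm_num
        _ ≤ 2 ^ n := Nat.pow_le_pow_right (by norm_num) (by omega)
    have h7 : 2 ^ n * (w * (2 * k + 1)) ≥ 4 * (w * 1) := Nat.mul_le_mul h6 (Nat.mul_le_mul_left _ (by omega))
    omega

/-- The relations in the units of the endomorphism ring. -/
theorem exists_units_data (n k : ℕ) (hn : 3 ≤ n) (hk : q + 1 = 2 ^ (n - 1) * (2 * k + 1))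
    (hc : Nat.card K = q ^ 2) : ∃ X Y : (Module.End FF K)ˣ, orderOf X = 2 ^ n ∧ Y ^ 2 = 1 ∧
      Y * X * Y⁻¹ = X ^ (2 ^ (n - 1) - 1) ∧ X ^ (2 ^ (n - 1)) = -1 ∧ Y ∉ Subgroup.zpowers X := by
  obtain ⟨y, hy, g, hg⟩ := exists_order (K := K) n k hn hk hc
  have hpn : 2 ^ n = 2 * 2 ^ (n - 1) := by
    rw [← pow_succ']
    congr 1
    omega
  have hpos : 0 < 2 ^ (n - 1) := by positivity
  have hyn : y ^ 2 ^ n = 1 := by
    rw [← hy]
    exact pow_orderOf_eq_one y
  refine ⟨lmulU y, frU hc, ?_, frU_sq hc, ?_, ?_, ?_⟩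
  · rw [orderOf_injective _ lmulU_injective, hy]
  · rw [frU_conj, ← map_pow]
    congr 1
    have h1 : q = 2 ^ n * k + (2 ^ (n - 1) - 1) := by
      have h3 : 2 ^ (n - 1) * (2 * k + 1) = 2 * 2 ^ (n - 1) * k + 2 ^ (n - 1) := by ring
      rw [hpn]
      omega
    rw [h1, pow_add, pow_mul, hyn, one_pow, one_mul]
  · -- the element of order two
    have hK : ((y ^ (2 ^ (n - 1)) : Kˣ) : K) = -1 := by
      have h1 : ((y ^ (2 ^ (n - 1)) : Kˣ) : K) * ((y ^ (2 ^ (n - 1)) : Kˣ) : K) = 1 := by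
        rw [← Units.val_mul, ← pow_add, ← two_mul, ← hpn, hyn, Units.val_one]
      rcases mul_self_eq_one_iff.1 h1 with h2 | h2
      · exfalso
        have h3 : y ^ (2 ^ (n - 1)) = 1 := Units.ext h2
        have h4 := orderOf_dvd_of_pow_eq_one h3
        rw [hy] at h4
        have h5 := Nat.le_of_dvd hpos h4
        omega
      · exact h2
    rw [← map_pow]
    ext x
    show ((y ^ (2 ^ (n - 1)) : Kˣ) : K) * x = - x
    rw [hK]
    ring
  · intro hmem
    obtain ⟨j, hj⟩ := Subgroup.mem_zpowers_iff.1 hmem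
    have h1 : lmulU (q := q) (y ^ j) = frU hc := by
      rw [map_zpow]
      exact hj
    have h2 := congrArg (fun u : (Module.End FF K)ˣ => (u : Module.End FF K) 1) h1
    have h3 : ((y ^ j : Kˣ) : K) = 1 := by
      have h4 : ((y ^ j : Kˣ) : K) * 1 = fr (q := q) (1 : K) := h2
      rw [fr_apply, one_pow, mul_one] at h4
      exact h4
    have h5 : y ^ j = 1 := Units.ext h3
    rw [h5, map_one] at h1
    apply hg
    apply Units.ext
    have h6 := congrArg (fun u : (Module.End FF K)ˣ => (u : Module.End FF K) (g : K)) h1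
    have h7 : (g : K) = fr (q := q) (g : K) := h6
    rw [fr_apply] at h7
    rw [Units.val_pow_eq_pow_val]
    exact h7.symm

/-- The relations in `GL₂`. -/
theorem exists_gl_data_of_field (n k : ℕ) (hn : 3 ≤ n) (hk : q + 1 = 2 ^ (n - 1) * (2 * k + 1))
    (hc : Nat.card K = q ^ 2) (hr : Module.finrank FF K = 2) :
    ∃ X Y : GL (Fin 2) FF, orderOf X = 2 ^ n ∧ Y ^ 2 = 1 ∧
      Y * X * Y⁻¹ = X ^ (2 ^ (n - 1) - 1) ∧ X ^ (2 ^ (n - 1)) = -1 ∧ Y ∉ Subgroup.zpowers X := by
  obtain ⟨X, Y, h1, h2, h3, h4, h5⟩ := exists_units_data (K := K) n k hn hk hc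
  haveI : Module.Finite FF K := Module.finite_of_finrank_pos (by omega)
  let b : Module.Basis (Fin 2) FF K := Module.finBasisOfFinrankEq FF K hr
  let Φ : Module.End FF K ≃ₐ[FF] Matrix (Fin 2) (Fin 2) FF := LinearMap.toMatrixAlgEquiv b
  let e : (Module.End FF K)ˣ ≃* GL (Fin 2) FF := Units.mapEquiv Φ.toMulEquiv
  refine ⟨e X, e Y, ?_, ?_, ?_, ?_, ?_⟩
  · rw [MulEquiv.orderOf_eq, h1]
  · rw [← map_pow, h2, map_one]
  · rw [← map_pow, ← h3, map_mul, map_mul, map_inv]
  · rw [← map_pow, h4]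
    apply Units.ext
    show Φ (-1) = -1
    rw [map_neg, map_one]
  · intro hmem
    obtain ⟨j, hj⟩ := Subgroup.mem_zpowers_iff.1 hmem
    apply h5
    refine ⟨j, ?_⟩
    apply e.injective
    rw [map_zpow]
    exact hj

end Field

/-- Quasi-dihedral data in `GL₂` of a prime field. -/
theorem exists_gl_data (n : ℕ) (hn : 3 ≤ n) : ∃ q k : ℕ, q.Prime ∧ q + 1 = 2 ^ (n - 1) * (2 * k + 1) ∧
    ∃ X Y : GL (Fin 2) (ZMod q), orderOf X = 2 ^ n ∧ Y ^ 2 = 1 ∧
      Y * X * Y⁻¹ = X ^ (2 ^ (n - 1) - 1) ∧ X ^ (2 ^ (n - 1)) = -1 ∧ Y ∉ Subgroup.zpowers X := by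
  obtain ⟨q, k, hq, hk⟩ := exists_prime_data n hn
  haveI : Fact q.Prime := ⟨hq⟩
  refine ⟨q, k, hq, hk, ?_⟩
  exact exists_gl_data_of_field (K := GaloisField q 2) n k hn hk (GaloisField.card q 2 (by norm_num))
    (GaloisField.finrank q (by norm_num))

end Cfsg.Agent.Lib.Fusion.Super.QDData
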