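/-
Embedding a group with a cyclic subgroup of index two by its relations, and the saturated systems without a normal
Sylow subgroup obtained from such an embedding.
-/
import Mathlib
import Cfsg.Agent.Lib.Fusion.Super.Backward

set_option autoImplicit false
set_option linter.style.haveILetI false
set_option linter.unusedSectionVars false

namespace Cfsg.Agent.Lib.Fusion.Super.Realize

open Cfsg Cfsg.FusionSystem Cfsg.Agent.Lib.Fusion.Super.Forward Cfsg.Agent.Lib.Fusion.Super.Backward

section Embed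

variable {D : Type*} [Group D]

/-- The subgroup generated by `g` and `h` consists of the `g ^ a * h ^ b`, with `b ≤ 1`. -/
theorem mem_closure_form {g h : D} {N t r : ℕ} (hN : 0 < N) (hg : g ^ N = 1) (ht : h ^ 2 = g ^ t)
    (hr : h * g * h⁻¹ = g ^ r) {w : D} (hw : w ∈ Subgroup.closure {g, h}) :
    ∃ (a : Fin N) (b : Fin 2), w = g ^ (a : ℕ) * h ^ (b : ℕ) := by
  have hform : ∃ (a : ℕ) (b : Fin 2), w = g ^ a * h ^ (b : ℕ) := by
    have hginv : g⁻¹ = g ^ (N - 1) := by
      apply inv_eq_of_mul_eq_one_left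
      rw [← pow_succ]
      rwa [Nat.sub_add_cancel hN]
    have hconj : ∀ a : ℕ, h * g ^ a * h⁻¹ = g ^ (r * a) := by
      intro a
      rw [pow_mul, ← hr, conj_pow]
    have hstep : ∀ (a : ℕ) (b : Fin 2), ∃ (a' : ℕ) (b' : Fin 2), h * (g ^ a * h ^ (b : ℕ)) = g ^ a' * h ^ (b' : ℕ) := by
      intro a b
      have h1 : h * g ^ a = g ^ (r * a) * h := by
        rw [← hconj a]
        group
      fin_cases b
      · refine ⟨r * a, 1, ?_⟩
        simp [h1]
      · refine ⟨r * a + t, 0, ?_⟩
        simp only [pow_one, Fin.val_zero, pow_zero, mul_one, pow_add, ← ht]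
        rw [← mul_assoc, h1, mul_assoc, pow_two]
    induction hw using Subgroup.closure_induction_left with
    | one => exact ⟨0, 0, by simp⟩
    | mul_left x hx y hy ih =>
      obtain ⟨a, b, rfl⟩ := ih
      rcases hx with rfl | hx
      · exact ⟨a + 1, b, by rw [pow_succ', mul_assoc]⟩
      · rw [Set.mem_singleton_iff] at hx
        subst hx
        exact hstep a b
    | inv_mul_cancel x hx y hy ih =>
      obtain ⟨a, b, rfl⟩ := ih
      rcases hx with rfl | hx
      · refine ⟨N - 1 + a, b, ?_⟩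
        rw [hginv, pow_add, mul_assoc]
      · rw [Set.mem_singleton_iff] at hx
        subst hx
        have h1 : x⁻¹ = x * g ^ ((N - 1) * t) := by
          rw [pow_mul, ← hginv, inv_pow, ← ht]
          group
        obtain ⟨a', b', he⟩ := hstep ((N - 1) * t + a) b
        refine ⟨a', b', ?_⟩
        rw [← he, h1, pow_add, mul_assoc, mul_assoc]
  obtain ⟨a, b, rfl⟩ := hform
  refine ⟨⟨a % N, Nat.mod_lt _ hN⟩, b, ?_⟩
  have h1 : g ^ (a % N) = g ^ a := by
    rw [← pow_mod_orderOf g a, ← pow_mod_orderOf g (a % N)]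
    rw [Nat.mod_mod_of_dvd _ (orderOf_dvd_of_pow_eq_one hg)]
  simp only [h1]

/-- The subgroup generated by `g` and `h` has at most `2 N` elements. -/
theorem finite_and_card_closure_le {g h : D} {N t r : ℕ} (hN : 0 < N) (hg : g ^ N = 1) (ht : h ^ 2 = g ^ t)
    (hr : h * g * h⁻¹ = g ^ r) :
    Finite (Subgroup.closure {g, h}) ∧ Nat.card (Subgroup.closure {g, h}) ≤ 2 * N := by
  have hgm : g ∈ Subgroup.closure {g, h} := Subgroup.subset_closure (by simp)
  have hhm : h ∈ Subgroup.closure {g, h} := Subgroup.subset_closure (by simp)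
  let f : Fin N × Fin 2 → Subgroup.closure {g, h} := fun ab =>
    ⟨g ^ (ab.1 : ℕ) * h ^ (ab.2 : ℕ), Subgroup.mul_mem _ (Subgroup.pow_mem _ hgm _) (Subgroup.pow_mem _ hhm _)⟩
  have hf : Function.Surjective f := by
    rintro ⟨w, hw⟩
    obtain ⟨a, b, rfl⟩ := mem_closure_form hN hg ht hr hw
    exact ⟨(a, b), rfl⟩
  refine ⟨Finite.of_surjective f hf, ?_⟩
  have h1 := Nat.card_le_card_of_surjective f hf
  simpa [Nat.card_prod, mul_comm] using h1

/-- A subgroup containing an element of order `N` and an element out of its powers has at least `2 N` elements. -/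
theorem two_mul_le_card {R : Subgroup D} [Finite R] {x y : D} (hx : x ∈ R) (hy : y ∈ R)
    (hyn : y ∉ Subgroup.zpowers x) : 2 * orderOf x ≤ Nat.card R := by
  have hle : (Subgroup.zpowers x).subgroupOf R ≤ ⊤ := le_top
  have hind : (Subgroup.zpowers x).subgroupOf R ≠ ⊤ := by
    intro h
    have h1 : (⟨y, hy⟩ : R) ∈ (Subgroup.zpowers x).subgroupOf R := by rw [h]; trivial
    exact hyn (Subgroup.mem_subgroupOf.1 h1)
  have hi : ((Subgroup.zpowers x).subgroupOf R).index ≠ 1 := by
    rwa [Ne, Subgroup.index_eq_one]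
  have hi0 : ((Subgroup.zpowers x).subgroupOf R).index ≠ 0 := Subgroup.index_ne_zero_of_finite
  have hc := ((Subgroup.zpowers x).subgroupOf R).card_mul_index
  have hcx : Nat.card ((Subgroup.zpowers x).subgroupOf R) = orderOf x := by
    have hle' : Subgroup.zpowers x ≤ R := Subgroup.zpowers_le.2 hx
    rw [Nat.card_congr (Subgroup.subgroupOfEquivOfLe hle').toEquiv, Nat.card_zpowers]
  rw [hcx] at hc
  rw [← hc, mul_comm]
  apply Nat.mul_le_mul_left
  omega

variable {M G : Type*} [Group M] [Group G]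

/-- A group of order `2 N` with generators `x, y` of the given relations embeds in any group with elements satisfying
these relations, with the same order and out of the cyclic subgroup. -/
theorem exists_embedding [Finite M] {x y : M} {X Y : G} {N t r : ℕ} (hN : 0 < N) (hcard : Nat.card M = 2 * N)
    (hxo : orderOf x = N) (hyn : y ∉ Subgroup.zpowers x) (hy : y ^ 2 = x ^ t) (hyx : y * x * y⁻¹ = x ^ r)
    (hXo : orderOf X = N) (hYn : Y ∉ Subgroup.zpowers X) (hY : Y ^ 2 = X ^ t) (hYX : Y * X * Y⁻¹ = X ^ r) :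
    ∃ ι : M →* G, Function.Injective ι ∧ ι x = X ∧ ι y = Y := by
  classical
  let g : M × G := (x, X)
  let h : M × G := (y, Y)
  have hg : g ^ N = 1 := by
    ext
    · simp [g, ← hxo, pow_orderOf_eq_one]
    · simp [g, ← hXo, pow_orderOf_eq_one]
  have ht : h ^ 2 = g ^ t := by
    ext
    · simpa [g, h] using hy
    · simpa [g, h] using hY
  have hr : h * g * h⁻¹ = g ^ r := by
    ext
    · simpa [g, h] using hyx
    · simpa [g, h] using hYX
  obtain ⟨hfin, hle⟩ := finite_and_card_closure_le hN hg ht hr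
  set K := Subgroup.closure {g, h} with hK
  have hgK : g ∈ K := Subgroup.subset_closure (by simp)
  have hhK : h ∈ K := Subgroup.subset_closure (by simp)
  let π₁ : K →* M := (MonoidHom.fst M G).comp K.subtype
  let π₂ : K →* G := (MonoidHom.snd M G).comp K.subtype
  haveI : Finite π₁.range := Finite.of_surjective _ π₁.rangeRestrict_surjective
  haveI : Finite π₂.range := Finite.of_surjective _ π₂.rangeRestrict_surjective
  have hx1 : x ∈ π₁.range := ⟨⟨g, hgK⟩, rfl⟩
  have hy1 : y ∈ π₁.range := ⟨⟨h, hhK⟩, rfl⟩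
  have hx2 : X ∈ π₂.range := ⟨⟨g, hgK⟩, rfl⟩
  have hy2 : Y ∈ π₂.range := ⟨⟨h, hhK⟩, rfl⟩
  have h1 := two_mul_le_card hx1 hy1 hyn
  have h2 := two_mul_le_card hx2 hy2 hYn
  rw [hxo] at h1
  rw [hXo] at h2
  have h3 : Nat.card π₁.range ≤ Nat.card K := Nat.card_le_card_of_surjective _ π₁.rangeRestrict_surjective
  have h4 : Nat.card π₂.range ≤ Nat.card K := Nat.card_le_card_of_surjective _ π₂.rangeRestrict_surjective
  have hK2 : Nat.card K = 2 * N := by omega
  have hbij₁ : Function.Bijective π₁ := by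
    have hs : Function.Surjective π₁ := by
      rw [← MonoidHom.range_eq_top]
      apply Subgroup.eq_top_of_le_card
      omega
    exact ⟨(Nat.bijective_iff_surjective_and_card _).2 ⟨hs, by omega⟩ |>.1, hs⟩
  have hinj₂ : Function.Injective π₂ := by
    have hs : Function.Surjective π₂.rangeRestrict := π₂.rangeRestrict_surjective
    have hb := (Nat.bijective_iff_surjective_and_card _).2 ⟨hs, by omega⟩
    intro a b hab
    exact hb.1 (Subtype.ext hab)
  let e : K ≃* M := MulEquiv.ofBijective π₁ hbij₁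
  refine ⟨π₂.comp e.symm.toMonoidHom, ?_, ?_, ?_⟩
  · exact hinj₂.comp e.symm.injective
  · have h5 : e ⟨g, hgK⟩ = x := rfl
    show π₂ (e.symm x) = X
    rw [← h5, MulEquiv.symm_apply_apply]
    rfl
  · have h5 : e ⟨h, hhK⟩ = y := rfl
    show π₂ (e.symm y) = Y
    rw [← h5, MulEquiv.symm_apply_apply]
    rfl

end Embed

section Fusion

variable {Ω : Type*} [Group Ω] {S : Subgroup Ω} [Finite S] {p : ℕ} [hp : Fact p.Prime] {G : Type*} [Group G] [Finite G]

/-- A system in which a generator of a subgroup of index two cannot be moved out of its cyclic subgroup by an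
automorphism, while a power of it is conjugate in `G` to an element outside. -/
theorem not_isNormal_of_embedding (ι : S →* G) (hι : Function.Injective ι)
    (hcard : Nat.card S = p ^ (Nat.card G).factorization p) (x u v : S) (hu : u ∈ Subgroup.zpowers x)
    (hv : v ∉ Subgroup.zpowers x) (hch : ∀ w : S, w ∉ Subgroup.zpowers x → orderOf w < orderOf x) (g : G)
    (hg : g * ι u * g⁻¹ = ι v) : ∃ F : FusionSystem S, F.IsSaturated p ∧ ¬ F.IsNormal S := by
  classical
  have hrc : Nat.card ι.range = p ^ (Nat.card G).factorization p := by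
    rw [← hcard]
    exact (Nat.card_congr (MonoidHom.ofInjective hι).toEquiv).symm
  let T : Sylow p G := Sylow.ofCard ι.range hrc
  have hT : (T : Subgroup G) = ι.range := rfl
  refine ⟨realized ι hι, Pullback.isSaturated_of_isRealizedBy (realized_isRealizedBy ι hι) T hT, fun hN => ?_⟩
  let R : Subgroup Ω := Subgroup.zpowers (u : Ω)
  have hRS : R ≤ S := Subgroup.zpowers_le.2 u.2
  let c : R →* G := (MulAut.conj g).toMonoidHom.comp (ι.comp (Subgroup.inclusion hRS))
  have hcu : ∀ k : ℤ, ∀ hk : (u : Ω) ^ k ∈ R, c ⟨(u : Ω) ^ k, hk⟩ = ι (v ^ k) := by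
    intro k hk
    have h1 : Subgroup.inclusion hRS ⟨(u : Ω) ^ k, hk⟩ = u ^ k := Subtype.ext (by simp)
    show g * ι (Subgroup.inclusion hRS ⟨(u : Ω) ^ k, hk⟩) * g⁻¹ = _
    rw [h1, map_zpow, map_zpow, ← hg, conj_zpow]
  have hc : ∀ w : R, c w ∈ ι.range := by
    rintro ⟨w, hw⟩
    obtain ⟨k, rfl⟩ := Subgroup.mem_zpowers_iff.1 hw
    rw [hcu k hw]
    exact ⟨_, rfl⟩
  let c' : R →* ι.range := c.codRestrict _ hc
  let φ : R →* Ω := S.subtype.comp ((MonoidHom.ofInjective hι).symm.toMonoidHom.comp c')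
  have hφS : ∀ w : R, φ w ∈ S := fun w => ((MonoidHom.ofInjective hι).symm (c' w)).2
  have hφι : ∀ w : R, ι ⟨φ w, hφS w⟩ = c w := by
    intro w
    have h1 : (⟨φ w, hφS w⟩ : S) = (MonoidHom.ofInjective hι).symm (c' w) := rfl
    rw [h1]
    have h2 := (MonoidHom.ofInjective hι).apply_symm_apply (c' w)
    exact congrArg Subtype.val h2
  have hφ : φ ∈ (realized ι hι).Hom R := by
    refine ⟨hRS, hφS, g, fun w => ?_⟩
    rw [hφι]
    rfl
  obtain ⟨α, -, hα⟩ := exists_aut_of_isNormal_top hN hφ
  have huR : (u : Ω) ∈ R := Subgroup.mem_zpowers _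
  have hαu : α u = v := by
    have h1 := hα ⟨u, huR⟩
    apply Subtype.ext
    have h2 : (α u : Ω) = φ ⟨u, huR⟩ := h1
    rw [h2]
    have h3 : ι ⟨φ ⟨u, huR⟩, hφS _⟩ = ι v := by
      rw [hφι]
      exact hg
    exact congrArg Subtype.val (hι h3)
  have hαx : α x ∈ Subgroup.zpowers x := by
    by_contra hcon
    have h1 := hch _ hcon
    rw [MulEquiv.orderOf_eq] at h1
    exact lt_irrefl _ h1
  apply hv
  rw [← hαu]
  obtain ⟨k, rfl⟩ := Subgroup.mem_zpowers_iff.1 hu
  rw [map_zpow]
  exact Subgroup.zpow_mem _ hαx k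

/-- The previous theorem for a model of `S`. -/
theorem not_isNormal_of_model {M : Type*} [Group M] (e : S ≃* M) (ι : M →* G) (hι : Function.Injective ι)
    (hcard : Nat.card M = p ^ (Nat.card G).factorization p) (x u v : M) (hu : u ∈ Subgroup.zpowers x)
    (hv : v ∉ Subgroup.zpowers x) (hch : ∀ w : M, w ∉ Subgroup.zpowers x → orderOf w < orderOf x) (g : G)
    (hg : g * ι u * g⁻¹ = ι v) : ∃ F : FusionSystem S, F.IsSaturated p ∧ ¬ F.IsNormal S := by
  have hz : ∀ a b : M, e.symm a ∈ Subgroup.zpowers (e.symm b) ↔ a ∈ Subgroup.zpowers b := by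
    intro a b
    constructor
    · rintro ⟨k, hk⟩
      refine ⟨k, ?_⟩
      apply e.symm.injective
      simpa using hk
    · rintro ⟨k, rfl⟩
      exact ⟨k, by simp⟩
  refine not_isNormal_of_embedding (ι.comp e.toMonoidHom) (hι.comp e.injective) ?_ (e.symm x) (e.symm u) (e.symm v)
    ((hz _ _).2 hu) (fun h => hv ((hz _ _).1 h)) ?_ g ?_
  · rw [Nat.card_congr e.toEquiv, hcard]
  · intro w hw
    have h1 : e w ∉ Subgroup.zpowers x := by
      intro h
      apply hw
      rw [← e.symm_apply_apply w]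
      exact (hz _ _).2 h
    have h2 := hch _ h1
    rwa [MulEquiv.orderOf_eq, ← MulEquiv.orderOf_eq e.symm x] at h2
  · simpa using hg

end Fusion

end Cfsg.Agent.Lib.Fusion.Super.Realize
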