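/-
Systems without a normal Sylow subgroup over quasi-dihedral, quaternion and dihedral 2-groups: those of `GL₂(q)`,
`SL₂(q)` and `PSL₂(q)`.
-/
import Mathlib
import Cfsg.Prelude.Def_CaseTheorems
import Cfsg.Agent.Lib.PSL2.Basic
import Cfsg.Agent.Lib.Fusion.Super.Realize
import Cfsg.Agent.Lib.Fusion.Super.QDData

set_option autoImplicit false
set_option linter.style.haveILetI false
set_option linter.unusedSectionVars false

namespace Cfsg.Agent.Lib.Fusion.Super.Types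

open Matrix Cfsg Cfsg.Agent.Lib.Fusion.Super.Realize Cfsg.Agent.Lib.Fusion.Super.QDData
open scoped MatrixGroups

section Conj

variable {q : ℕ} [hq : Fact q.Prime]

local notation "FF" => ZMod q

/-- The companion matrix. -/
def compan : SL(2, FF) := ⟨!![0, -1; 1, 0], by simp [Matrix.det_fin_two_of]⟩

/-- A matrix of square `-1` is conjugate to the companion matrix in `SL₂`, when `-1` is not a square. -/
theorem exists_conj_matrix (hns : ¬ IsSquare (-1 : FF)) (A : Matrix (Fin 2) (Fin 2) FF) (hA : A * A = -1) :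
    ∃ P : SL(2, FF), A * (P : Matrix (Fin 2) (Fin 2) FF) = (P : Matrix (Fin 2) (Fin 2) FF) * (compan : SL(2, FF)) := by
  have hent : ∀ i j, (A * A) i j = (-1 : Matrix (Fin 2) (Fin 2) FF) i j := fun i j => by rw [hA]
  have h00 := hent 0 0
  have h01 := hent 0 1
  have h10 := hent 1 0
  have h11 := hent 1 1
  simp [Matrix.mul_apply, Fin.sum_univ_two] at h00 h01 h10 h11
  set a := A 0 0
  set b := A 0 1
  set c := A 1 0
  set d := A 1 1
  have hc : c ≠ 0 := by
    rintro hc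
    rw [hc] at h00
    apply hns
    refine ⟨a, ?_⟩
    rw [← h00]
    ring
  have hd : d = -a := by
    have h1 : c * (a + d) = 0 := by linear_combination h10
    rcases mul_eq_zero.1 h1 with h | h
    · exact absurd h hc
    · linear_combination h
  obtain ⟨α, β, hαβ⟩ := ZMod.sq_add_sq q (c⁻¹)
  have hdet : (α + a * β) * (c * α) - (a * α - β) * (c * β) = 1 := by
    have h1 : c * (α ^ 2 + β ^ 2) = 1 := by
      rw [hαβ]
      exact mul_inv_cancel₀ hc
    linear_combination h1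
  refine ⟨⟨!![α + a * β, a * α - β; c * β, c * α], by rw [Matrix.det_fin_two_of]; exact hdet⟩, ?_⟩
  have hAe : A = !![a, b; c, d] := by
    ext i j
    fin_cases i <;> fin_cases j <;> rfl
  rw [hAe]
  ext i j
  fin_cases i <;> fin_cases j <;> simp [compan, Matrix.mul_apply, Fin.sum_univ_two]
  · linear_combination β * h00
  · linear_combination α * h00
  · rw [hd]
    ring
  · rw [hd]
    ring

/-- Two elements of `GL₂` of square `-1` are conjugate by an element of `SL₂`. -/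
theorem exists_conj_gl (hns : ¬ IsSquare (-1 : FF)) (A B : GL (Fin 2) FF) (hA : A ^ 2 = -1) (hB : B ^ 2 = -1) :
    ∃ g : SL(2, FF), (g : GL (Fin 2) FF) * A * (g : GL (Fin 2) FF)⁻¹ = B := by
  have hm : ∀ C : GL (Fin 2) FF, C ^ 2 = -1 →
      (C : Matrix (Fin 2) (Fin 2) FF) * (C : Matrix (Fin 2) (Fin 2) FF) = -1 := by
    intro C hC
    have h1 := congrArg (fun u : GL (Fin 2) FF => (u : Matrix (Fin 2) (Fin 2) FF)) hC
    simpa [pow_two] using h1
  obtain ⟨P, hP⟩ := exists_conj_matrix hns _ (hm A hA)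
  obtain ⟨R, hR⟩ := exists_conj_matrix hns _ (hm B hB)
  have hP' : A * (P : GL (Fin 2) FF) = (P : GL (Fin 2) FF) * ((compan : SL(2, FF)) : GL (Fin 2) FF) := Units.ext hP
  have hR' : B * (R : GL (Fin 2) FF) = (R : GL (Fin 2) FF) * ((compan : SL(2, FF)) : GL (Fin 2) FF) := Units.ext hR
  refine ⟨R * P⁻¹, ?_⟩
  have h1 : ((R * P⁻¹ : SL(2, FF)) : GL (Fin 2) FF) = (R : GL (Fin 2) FF) * (P : GL (Fin 2) FF)⁻¹ := by
    apply Units.ext
    simp
  rw [h1]
  have h2 : A = (P : GL (Fin 2) FF) * ((compan : SL(2, FF)) : GL (Fin 2) FF) * (P : GL (Fin 2) FF)⁻¹ := by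
    rw [← hP']
    group
  have h3 : B = (R : GL (Fin 2) FF) * ((compan : SL(2, FF)) : GL (Fin 2) FF) * (R : GL (Fin 2) FF)⁻¹ := by
    rw [← hR']
    group
  rw [h2, h3]
  group

end Conj

section Arith

theorem factorization_of_eq {x a o : ℕ} (h : x = 2 ^ a * o) (ho : Odd o) : x.factorization 2 = a := by
  have hnd : ¬ 2 ∣ o := by
    rw [← even_iff_two_dvd, Nat.not_even_iff_odd]
    exact ho
  rw [h, Nat.factorization_mul (by positivity) ho.pos.ne']
  simp [Nat.factorization_eq_zero_of_not_dvd hnd, Nat.prime_two.factorization_self]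

theorem exists_w {q n k : ℕ} (hn : 3 ≤ n) (hk : q + 1 = 2 ^ (n - 1) * (2 * k + 1)) :
    ∃ w : ℕ, Odd w ∧ q = 2 * w + 1 ∧ q ^ 2 - 1 = 2 ^ n * (w * (2 * k + 1)) := by
  have h1 : (2:ℕ) ^ (n - 1) = 4 * 2 ^ (n - 3) := by
    have : n - 1 = 2 + (n - 3) := by omega
    rw [this, pow_add]
    norm_num
  have hpn : 2 ^ n = 2 * 2 ^ (n - 1) := by
    rw [← pow_succ']
    congr 1
    omega
  set c := 2 ^ (n - 3) * (2 * k + 1) with hc
  have hc0 : 0 < c := by positivity
  have h2 : q + 1 = 4 * c := by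
    rw [hk, h1, hc]
    ring
  refine ⟨2 * c - 1, ?_, by omega, ?_⟩
  · rw [Nat.odd_iff]
    omega
  · have hq : q = 2 * (2 * c - 1) + 1 := by omega
    have h3 : q ^ 2 = (q + 1) * (2 * (2 * c - 1)) + 1 := by
      conv_lhs => rw [hq]
      have h4 : q + 1 = 2 * (2 * c - 1) + 1 + 1 := by omega
      rw [h4]
      ring
    rw [h3, hk, hpn]
    simp only [Nat.add_sub_cancel]
    ring

end Arith

section Card

variable {q : ℕ} [hq : Fact q.Prime]

local notation "FF" => ZMod q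

theorem not_isSquare {n k : ℕ} (hn : 3 ≤ n) (hk : q + 1 = 2 ^ (n - 1) * (2 * k + 1)) : ¬ IsSquare (-1 : FF) := by
  rw [FiniteField.isSquare_neg_one_iff, ZMod.card]
  obtain ⟨w, hw, hq1, -⟩ := exists_w hn hk
  rw [Nat.odd_iff] at hw
  omega

theorem card_GL_factorization {n k : ℕ} (hn : 3 ≤ n) (hk : q + 1 = 2 ^ (n - 1) * (2 * k + 1)) :
    (Nat.card (GL (Fin 2) FF)).factorization 2 = n + 1 := by
  obtain ⟨w, hw, hq1, h⟩ := exists_w hn hk
  have hc : Nat.card (GL (Fin 2) FF) = (q ^ 2 - 1) * (q ^ 2 - q) := by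
    rw [Matrix.card_GL_field, Fin.prod_univ_two]
    simp
  have h2 : q ^ 2 - q = q * (2 * w) := by
    have : q ^ 2 = q * (2 * w) + q := by
      conv_lhs => rw [pow_two]
      nth_rw 2 [hq1]
      ring
    omega
  apply factorization_of_eq (o := (w * (2 * k + 1)) * (q * w))
  · rw [hc, h, h2]
    ring
  · apply Odd.mul (hw.mul (by simp)) (Odd.mul _ hw)
    rw [hq1]
    simp

theorem card_SL_factorization {n k : ℕ} (hn : 3 ≤ n) (hk : q + 1 = 2 ^ (n - 1) * (2 * k + 1)) :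
    (Nat.card SL(2, FF)).factorization 2 = n := by
  obtain ⟨w, hw, hq1, h⟩ := exists_w hn hk
  apply factorization_of_eq (o := q * (w * (2 * k + 1)))
  · rw [Cfsg.Agent.Lib.PSL2.Basic.card_SL2, ZMod.card, h]
    ring
  · apply Odd.mul _ (hw.mul (by simp))
    rw [hq1]
    simp

theorem two_ne_zero_FF {n k : ℕ} (hn : 3 ≤ n) (hk : q + 1 = 2 ^ (n - 1) * (2 * k + 1)) : (2 : FF) ≠ 0 := by
  obtain ⟨w, hw, hq1, h⟩ := exists_w hn hk
  intro h2
  have h3 : ((2 : ℕ) : FF) = 0 := by exact_mod_cast h2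
  rw [ZMod.natCast_eq_zero_iff] at h3
  have h4 := Nat.le_of_dvd (by norm_num) h3
  rw [Nat.odd_iff] at hw
  omega

theorem card_PSL_factorization {n k : ℕ} (hn : 3 ≤ n) (hk : q + 1 = 2 ^ (n - 1) * (2 * k + 1)) :
    (Nat.card PSL(2, FF)).factorization 2 = n - 1 := by
  obtain ⟨w, hw, hq1, h⟩ := exists_w hn hk
  have hc := Cfsg.Agent.Lib.PSL2.Basic.card_PSL2_of_two_ne_zero (F := FF) (two_ne_zero_FF hn hk)
  rw [ZMod.card, h] at hc
  have hpn : 2 ^ n = 2 * 2 ^ (n - 1) := by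
    rw [← pow_succ']
    congr 1
    omega
  apply factorization_of_eq (o := q * (w * (2 * k + 1)))
  · have h5 : 2 * Nat.card PSL(2, FF) = 2 * (2 ^ (n - 1) * (q * (w * (2 * k + 1)))) := by
      rw [hc, hpn]
      ring
    omega
  · apply Odd.mul _ (hw.mul (by simp))
    rw [hq1]
    simp

end Card

section QD

variable {M : Type*} [Group M]

theorem y_not_mem_of_qd {x y : M} {n : ℕ} (hn : 3 ≤ n) (hx : orderOf x = 2 ^ n)
    (hyx : y * x * y⁻¹ = x ^ (2 ^ (n - 1) - 1)) : y ∉ Subgroup.zpowers x := by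
  rintro ⟨j, rfl⟩
  have h1 : x ^ j * x * (x ^ j)⁻¹ = x := by
    group
  simp only at hyx
  rw [h1] at hyx
  have hpn : 2 ^ n = 2 * 2 ^ (n - 1) := by
    rw [← pow_succ']
    congr 1
    omega
  have h4 : 4 ≤ 2 ^ (n - 1) := by
    calc 4 = 2 ^ 2 := by norm_num
      _ ≤ 2 ^ (n - 1) := Nat.pow_le_pow_right (by norm_num) (by omega)
  have h2 : x ^ (2 ^ (n - 1) - 2) = 1 := by
    have h3 : x ^ (2 ^ (n - 1) - 1) = x ^ (2 ^ (n - 1) - 2) * x := by
      rw [← pow_succ]
      congr 1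
      omega
    rw [h3] at hyx
    simpa using hyx.symm
  have h5 := orderOf_dvd_of_pow_eq_one h2
  rw [hx] at h5
  have h6 := Nat.le_of_dvd (by omega) h5
  omega

theorem orderOf_lt_of_qd [Finite M] {x y : M} {n : ℕ} (hn : 3 ≤ n) (hcard : Nat.card M = 2 * 2 ^ n)
    (hx : orderOf x = 2 ^ n) (hyn : y ∉ Subgroup.zpowers x) (hy : y ^ 2 = 1)
    (hyx : y * x * y⁻¹ = x ^ (2 ^ (n - 1) - 1)) (w : M) (hw : w ∉ Subgroup.zpowers x) :
    orderOf w < orderOf x := by
  have hpos : 0 < 2 ^ n := by positivity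
  have hxN : x ^ 2 ^ n = 1 := by
    rw [← hx]
    exact pow_orderOf_eq_one x
  have hxc : x ∈ Subgroup.closure {x, y} := Subgroup.subset_closure (by simp)
  have hyc : y ∈ Subgroup.closure {x, y} := Subgroup.subset_closure (by simp)
  have hle := two_mul_le_card hxc hyc hyn
  rw [hx, ← hcard] at hle
  have htop : Subgroup.closure {x, y} = ⊤ := Subgroup.eq_top_of_le_card _ hle
  have hwc : w ∈ Subgroup.closure {x, y} := by rw [htop]; trivial
  obtain ⟨a, b, rfl⟩ := mem_closure_form hpos hxN (t := 0) (by simpa using hy) hyx hwc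
  have hb : (b : ℕ) = 1 := by
    by_contra hb
    have hb0 : (b : ℕ) = 0 := by omega
    apply hw
    rw [hb0, pow_zero, mul_one]
    exact Subgroup.pow_mem _ (Subgroup.mem_zpowers x) _
  rw [hb, pow_one]
  set A : ℕ := (a : ℕ)
  have hpn : 2 ^ n = 2 * 2 ^ (n - 1) := by
    rw [← pow_succ']
    congr 1
    omega
  have h4 : 4 ≤ 2 ^ (n - 1) := by
    calc 4 = 2 ^ 2 := by norm_num
      _ ≤ 2 ^ (n - 1) := Nat.pow_le_pow_right (by norm_num) (by omega)
  have hsq : (x ^ A * y) ^ 2 = x ^ (A * 2 ^ (n - 1)) := by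
    have h1 : y * x ^ A * y⁻¹ = x ^ ((2 ^ (n - 1) - 1) * A) := by
      rw [pow_mul, ← hyx, conj_pow]
    have h2 : y * x ^ A = x ^ ((2 ^ (n - 1) - 1) * A) * y := by
      rw [← h1]
      group
    have h3 : (x ^ A * y) ^ 2 = x ^ A * (y * x ^ A) * y := by
      rw [pow_two]
      group
    rw [h3, h2, ← mul_assoc, mul_assoc, ← pow_two, hy, mul_one, ← pow_add]
    congr 1
    have h5 : 2 ^ (n - 1) = (2 ^ (n - 1) - 1) + 1 := by omega
    nth_rw 2 [h5]
    ring
  have h4' : (x ^ A * y) ^ 4 = 1 := by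
    have h5 : (x ^ A * y) ^ 4 = ((x ^ A * y) ^ 2) ^ 2 := by rw [← pow_mul]
    rw [h5, hsq, ← pow_mul]
    have h6 : A * 2 ^ (n - 1) * 2 = A * 2 ^ n := by
      rw [hpn]
      ring
    rw [h6, pow_mul', hxN, one_pow]
  have h5 := Nat.le_of_dvd (by norm_num) (orderOf_dvd_of_pow_eq_one h4')
  rw [hx]
  omega

/-- The system of `GL₂(q)`, for a quasi-dihedral group. -/
theorem exists_not_normal_qd {Ω : Type*} [Group Ω] {S : Subgroup Ω} [Finite S] (hqd : IsQuasiDihedral S) :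
    ∃ F : FusionSystem S, F.IsSaturated 2 ∧ ¬ F.IsNormal S := by
  obtain ⟨n, hn, hcard, x, y, hx, hy, hyx⟩ := hqd
  have hcard' : Nat.card S = 2 * 2 ^ n := by
    rw [hcard]
    ring
  have hyn := y_not_mem_of_qd hn hx hyx
  have hy2 : y ^ 2 = 1 := by
    rw [← hy]
    exact pow_orderOf_eq_one y
  obtain ⟨q, k, hq, hk, X, Y, hX, hY2, hYX, hXn, hYn⟩ := exists_gl_data n hn
  haveI : Fact q.Prime := ⟨hq⟩
  obtain ⟨ι, hι, hιx, hιy⟩ := exists_embedding (N := 2 ^ n) (t := 0) (r := 2 ^ (n - 1) - 1) (by positivity) hcard' hx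
    hyn (by simpa using hy2) hyx hX hYn (by simpa using hY2) hYX
  have hns := not_isSquare (q := q) hn hk
  have hA : (X ^ (2 ^ (n - 2))) ^ 2 = -1 := by
    rw [← pow_mul, ← hXn]
    congr 1
    rw [← pow_succ]
    congr 1
    omega
  have hB : (X * Y) ^ 2 = -1 := by
    have h1 : (X * Y) ^ 2 = X * (Y * X * Y⁻¹) * Y ^ 2 := by
      rw [pow_two, pow_two]
      group
    rw [h1, hY2, mul_one, hYX, ← pow_succ', ← hXn]
    congr 1
    have h4 : 1 ≤ 2 ^ (n - 1) := Nat.one_le_two_pow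
    omega
  obtain ⟨g, hg⟩ := exists_conj_gl hns _ _ hA hB
  refine not_isNormal_of_embedding ι hι ?_ x (x ^ (2 ^ (n - 2))) (x * y)
    (Subgroup.pow_mem _ (Subgroup.mem_zpowers x) _) ?_ (orderOf_lt_of_qd hn hcard' hx hyn hy2 hyx) (g : GL (Fin 2) (ZMod q)) ?_
  · rw [card_GL_factorization hn hk, hcard]
  · intro h
    apply hyn
    have h1 : y = x⁻¹ * (x * y) := by group
    rw [h1]
    exact Subgroup.mul_mem _ (Subgroup.inv_mem _ (Subgroup.mem_zpowers x)) h
  · rw [map_pow, map_mul, hιx, hιy]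
    exact hg

end QD

section SLData

variable {q : ℕ} [hq : Fact q.Prime]

local notation "FF" => ZMod q

theorem det_eq_one_of_sq (hns : ¬ IsSquare (-1 : FF)) (A : GL (Fin 2) FF) (hA : A ^ 2 = -1) :
    (A : Matrix (Fin 2) (Fin 2) FF).det = 1 := by
  have h1 := congrArg (fun u : GL (Fin 2) FF => (u : Matrix (Fin 2) (Fin 2) FF)) hA
  have h2 : (A : Matrix (Fin 2) (Fin 2) FF) * (A : Matrix (Fin 2) (Fin 2) FF) = -1 := by
    simpa [pow_two] using h1
  obtain ⟨P, hP⟩ := exists_conj_matrix hns _ h2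
  have h3 := congrArg Matrix.det hP
  rw [Matrix.det_mul, Matrix.det_mul, P.2, (compan : SL(2, FF)).2] at h3
  simpa using h3

theorem exists_sl_data {n k : ℕ} (hn : 3 ≤ n) (hk : q + 1 = 2 ^ (n - 1) * (2 * k + 1)) {X Y : GL (Fin 2) FF}
    (hX : orderOf X = 2 ^ n) (hY2 : Y ^ 2 = 1) (hYX : Y * X * Y⁻¹ = X ^ (2 ^ (n - 1) - 1))
    (hXn : X ^ (2 ^ (n - 1)) = -1) (hYn : Y ∉ Subgroup.zpowers X) :
    ∃ t y : SL(2, FF), orderOf t = 2 ^ (n - 1) ∧ t ^ (2 ^ (n - 2)) = -1 ∧ y ^ 2 = -1 ∧ y * t * y⁻¹ = t⁻¹ ∧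
      y ∉ Subgroup.zpowers t := by
  have hns := not_isSquare (q := q) hn hk
  obtain ⟨w, hw, hq1, -⟩ := exists_w hn hk
  have hpn : 2 ^ n = 2 * 2 ^ (n - 1) := by
    rw [← pow_succ']
    congr 1
    omega
  have hpn1 : 2 ^ (n - 1) = 2 * 2 ^ (n - 2) := by
    rw [← pow_succ']
    congr 1
    omega
  -- the determinant of `X`
  let D : FFˣ := Matrix.GeneralLinearGroup.det X
  have hD1 : D ^ (q - 1) = 1 := ZMod.units_pow_card_sub_one_eq_one q D
  have hD2 : D ^ (2 ^ (n - 1)) = 1 := by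
    have h1 : D ^ (2 ^ (n - 1)) = Matrix.GeneralLinearGroup.det (X ^ (2 ^ (n - 1))) := by
      rw [map_pow]
    rw [h1, hXn]
    apply Units.ext
    simp [Matrix.GeneralLinearGroup.val_det_apply, Matrix.det_neg]
  have hgcd : (q - 1).gcd (2 ^ (n - 1)) = 2 := by
    have h1 : q - 1 = 2 * w := by omega
    rw [h1, hpn1, Nat.gcd_mul_left]
    have h2 : Nat.Coprime w (2 ^ (n - 2)) := by
      apply Nat.Coprime.pow_right
      rw [Nat.coprime_two_right]
      exact hw
    rw [h2.gcd_eq_one]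
  have hD : D ^ 2 = 1 := by
    have h1 : D ^ (q - 1).gcd (2 ^ (n - 1)) = 1 := pow_gcd_eq_one.2 ⟨hD1, hD2⟩
    rwa [hgcd] at h1
  have hdetX2 : ((X ^ 2 : GL (Fin 2) FF) : Matrix (Fin 2) (Fin 2) FF).det = 1 := by
    have h1 : (Matrix.GeneralLinearGroup.det (X ^ 2) : FFˣ) = 1 := by
      rw [map_pow]
      exact hD
    have h2 := congrArg (fun u : FFˣ => (u : FF)) h1
    simpa [Matrix.GeneralLinearGroup.val_det_apply] using h2
  have hB : (X * Y) ^ 2 = -1 := by
    have h1 : (X * Y) ^ 2 = X * (Y * X * Y⁻¹) * Y ^ 2 := by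
      rw [pow_two, pow_two]
      group
    rw [h1, hY2, mul_one, hYX, ← pow_succ', ← hXn]
    congr 1
    have h4 : 1 ≤ 2 ^ (n - 1) := Nat.one_le_two_pow
    omega
  have hdetXY := det_eq_one_of_sq hns (X * Y) hB
  let t : SL(2, FF) := ⟨_, hdetX2⟩
  let y : SL(2, FF) := ⟨_, hdetXY⟩
  have hit : (t : GL (Fin 2) FF) = X ^ 2 := Units.ext rfl
  have hiy : (y : GL (Fin 2) FF) = X * Y := Units.ext rfl
  have hneg : ((-1 : SL(2, FF)) : GL (Fin 2) FF) = -1 := by
    apply Units.ext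
    simp
  have hinj := Matrix.SpecialLinearGroup.toGL_injective (n := Fin 2) (R := FF)
  have hXN : X ^ 2 ^ n = 1 := by
    rw [← hX]
    exact pow_orderOf_eq_one X
  refine ⟨t, y, ?_, ?_, ?_, ?_, ?_⟩
  · rw [← orderOf_injective Matrix.SpecialLinearGroup.toGL hinj t]
    show orderOf ((t : GL (Fin 2) FF)) = _
    rw [hit, orderOf_pow_of_dvd (by norm_num) (by rw [hX]; exact dvd_pow_self 2 (by omega)), hX, hpn]
    simp
  · apply hinj
    show ((t ^ (2 ^ (n - 2)) : SL(2, FF)) : GL (Fin 2) FF) = ((-1 : SL(2, FF)) : GL (Fin 2) FF)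
    rw [hneg, map_pow, hit, ← pow_mul, ← hpn1, hXn]
  · apply hinj
    show ((y ^ 2 : SL(2, FF)) : GL (Fin 2) FF) = ((-1 : SL(2, FF)) : GL (Fin 2) FF)
    rw [hneg, map_pow, hiy, hB]
  · apply hinj
    show ((y * t * y⁻¹ : SL(2, FF)) : GL (Fin 2) FF) = ((t⁻¹ : SL(2, FF)) : GL (Fin 2) FF)
    rw [map_mul, map_mul, map_inv, map_inv, hit, hiy]
    have h1 : X * Y * X ^ 2 * (X * Y)⁻¹ = X * ((Y * X * Y⁻¹) ^ 2) * X⁻¹ := by
      rw [pow_two, pow_two]
      group
    rw [h1, hYX, ← pow_mul]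
    have h2 : X * X ^ ((2 ^ (n - 1) - 1) * 2) * X⁻¹ = X ^ ((2 ^ (n - 1) - 1) * 2) := by
      rw [← pow_succ', pow_succ, mul_inv_cancel_right]
    rw [h2]
    apply eq_inv_of_mul_eq_one_left
    rw [← pow_add, ← hXN]
    congr 1
    have h4 : 1 ≤ 2 ^ (n - 1) := Nat.one_le_two_pow
    omega
  · rintro ⟨j, hj⟩
    have h1 : X ^ (2 * j) = X * Y := by
      have h2 := congrArg (fun z : SL(2, FF) => (z : GL (Fin 2) FF)) hj
      simp only [map_zpow, hit, hiy] at h2
      rw [← h2, ← zpow_natCast, ← _root_.zpow_mul]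
      norm_num
    apply hYn
    have h2 : Y = X ^ (2 * j - 1) := by
      rw [show 2 * j - 1 = -1 + 2 * j by ring, _root_.zpow_add, h1]
      group
    rw [h2]
    exact Subgroup.zpow_mem _ (Subgroup.mem_zpowers X) _

theorem exists_conj_sl {n k : ℕ} (hn : 3 ≤ n) (hk : q + 1 = 2 ^ (n - 1) * (2 * k + 1)) {A B : SL(2, FF)}
    (hA : A ^ 2 = -1) (hB : B ^ 2 = -1) : ∃ g : SL(2, FF), g * A * g⁻¹ = B := by
  have hns := not_isSquare (q := q) hn hk
  have hneg : ((-1 : SL(2, FF)) : GL (Fin 2) FF) = -1 := by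
    apply Units.ext
    simp
  have hA' : (A : GL (Fin 2) FF) ^ 2 = -1 := by
    rw [← map_pow, hA, hneg]
  have hB' : (B : GL (Fin 2) FF) ^ 2 = -1 := by
    rw [← map_pow, hB, hneg]
  obtain ⟨g, hg⟩ := exists_conj_gl hns _ _ hA' hB'
  refine ⟨g, Matrix.SpecialLinearGroup.toGL_injective ?_⟩
  rw [map_mul, map_mul, map_inv]
  exact hg

end SLData

section Quat

open QuaternionGroup

theorem mem_zpowers_a {m : ℕ} [NeZero m] {w : QuaternionGroup m} (hw : w ∈ Subgroup.zpowers (a 1 : QuaternionGroup m)) :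
    ∃ k : ℕ, w = a (k : ZMod (2 * m)) := by
  haveI : Finite (QuaternionGroup m) := inferInstance
  have h1 := (mem_powers_iff_mem_zpowers).2 hw
  obtain ⟨k, rfl⟩ := Submonoid.mem_powers_iff _ _ |>.1 h1
  exact ⟨k, a_one_pow k⟩

/-- The system of `SL₂(q)`, for a generalized quaternion group of order at least `16`. -/
theorem exists_not_normal_quat {Ω : Type*} [Group Ω] {S : Subgroup Ω} [Finite S] (c : ℕ) (hc : 2 ≤ c)
    (e : S ≃* QuaternionGroup (2 ^ c)) : ∃ F : FusionSystem S, F.IsSaturated 2 ∧ ¬ F.IsNormal S := by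
  have hn : 3 ≤ c + 2 := by omega
  obtain ⟨q, k, hq, hk, X, Y, hX, hY2, hYX, hXn, hYn⟩ := exists_gl_data (c + 2) hn
  haveI : Fact q.Prime := ⟨hq⟩
  obtain ⟨t, y, ht, htn, hy2, hyt, hyn⟩ := exists_sl_data hn hk hX hY2 hYX hXn hYn
  simp only [Nat.add_sub_cancel] at ht htn
  have ho : (c + 2 - 1) = c + 1 := by omega
  rw [ho] at ht
  set m := 2 ^ c with hm
  have hm4 : 4 ≤ m := by
    calc 4 = 2 ^ 2 := by norm_num
      _ ≤ 2 ^ c := Nat.pow_le_pow_right (by norm_num) hc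
  haveI : NeZero m := ⟨by omega⟩
  have hN : 2 * m = 2 ^ (c + 1) := by
    rw [hm, pow_succ]
    ring
  have hcardM : Nat.card (QuaternionGroup m) = 2 * (2 * m) := by
    rw [Nat.card_eq_fintype_card, QuaternionGroup.card]
    ring
  have hyM : (xa 0 : QuaternionGroup m) ∉ Subgroup.zpowers (a 1 : QuaternionGroup m) := by
    intro h
    obtain ⟨j, hj⟩ := mem_zpowers_a h
    exact absurd hj (by simp)
  have htN : t ^ (2 * m) = 1 := by
    rw [hN, ← ht]
    exact pow_orderOf_eq_one t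
  have htinv : t⁻¹ = t ^ (2 * m - 1) := by
    apply inv_eq_of_mul_eq_one_left
    rw [← pow_succ, Nat.sub_add_cancel (by omega), htN]
  have hrel : (xa 0 : QuaternionGroup m) * a 1 * (xa 0)⁻¹ = (a 1) ^ (2 * m - 1) := by
    rw [mul_inv_eq_iff_eq_mul, a_one_pow, a_mul_xa, xa_mul_a]
    congr 1
    have h1 : ((2 * m - 1 : ℕ) : ZMod (2 * m)) = -1 := by
      rw [Nat.cast_sub (by omega)]
      have h2 : ((2 * m : ℕ) : ZMod (2 * m)) = 0 := ZMod.natCast_self _
      rw [h2]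
      simp
    rw [h1]
    simp
  obtain ⟨ι, hι, hιx, hιy⟩ := exists_embedding (N := 2 * m) (t := m) (r := 2 * m - 1) (by omega) hcardM
    (x := (a 1 : QuaternionGroup m)) (y := (xa 0 : QuaternionGroup m)) (X := t) (Y := y)
    orderOf_a_one hyM (by rw [xa_sq, a_one_pow]) hrel (by rw [ht, hN]) hyn (by rw [hy2, htn])
    (by rw [hyt, htinv])
  have hA : (t ^ (2 ^ (c - 1))) ^ 2 = -1 := by
    rw [← pow_mul, ← htn]
    congr 1
    rw [← pow_succ]
    congr 1
    omega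
  obtain ⟨g, hg⟩ := exists_conj_sl hn hk hA hy2
  refine not_isNormal_of_model e ι hι ?_ (a 1) ((a 1) ^ (2 ^ (c - 1))) (xa 0)
    (Subgroup.pow_mem _ (Subgroup.mem_zpowers _) _) hyM ?_ g ?_
  · rw [card_SL_factorization hn hk, hcardM, pow_add, ← hm]
    ring
  · intro w hw
    rw [orderOf_a_one]
    rcases w with i | i
    · exfalso
      apply hw
      rw [← ZMod.natCast_zmod_val i, ← a_one_pow]
      exact Subgroup.pow_mem _ (Subgroup.mem_zpowers _) _
    · rw [orderOf_xa]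
      omega
  · rw [map_pow, hιx, hιy]
    exact hg

end Quat

section Dih

open DihedralGroup Cfsg.Agent.Lib.PSL2.Basic

theorem mem_zpowers_r {m : ℕ} [NeZero m] {w : DihedralGroup m} (hw : w ∈ Subgroup.zpowers (r 1 : DihedralGroup m)) :
    ∃ k : ℕ, w = r (k : ZMod m) := by
  haveI : Finite (DihedralGroup m) := inferInstance
  have h1 := (mem_powers_iff_mem_zpowers).2 hw
  obtain ⟨k, rfl⟩ := Submonoid.mem_powers_iff _ _ |>.1 h1
  exact ⟨k, r_one_pow k⟩

/-- The system of `PSL₂(q)`, for a dihedral group of order at least `8`. -/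
theorem exists_not_normal_dih {Ω : Type*} [Group Ω] {S : Subgroup Ω} [Finite S] (c : ℕ) (hc : 2 ≤ c)
    (e : S ≃* DihedralGroup (2 ^ c)) : ∃ F : FusionSystem S, F.IsSaturated 2 ∧ ¬ F.IsNormal S := by
  have hn : 3 ≤ c + 2 := by omega
  obtain ⟨q, k, hq, hk, X, Y, hX, hY2, hYX, hXn, hYn⟩ := exists_gl_data (c + 2) hn
  haveI : Fact q.Prime := ⟨hq⟩
  obtain ⟨t, y, ht, htn, hy2, hyt, hyn⟩ := exists_sl_data hn hk hX hY2 hYX hXn hYn
  simp only [Nat.add_sub_cancel] at ht htn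
  have ho : (c + 2 - 1) = c + 1 := by omega
  rw [ho] at ht
  set m := 2 ^ c with hm
  have hm4 : 4 ≤ m := by
    calc 4 = 2 ^ 2 := by norm_num
      _ ≤ 2 ^ c := Nat.pow_le_pow_right (by norm_num) hc
  haveI : NeZero m := ⟨by omega⟩
  have h2F : (2 : ZMod q) ≠ 0 := two_ne_zero_FF hn hk
  have hcardM : Nat.card (DihedralGroup m) = 2 * m := nat_card
  have hyM : (sr 0 : DihedralGroup m) ∉ Subgroup.zpowers (r 1 : DihedralGroup m) := by
    intro h
    obtain ⟨j, hj⟩ := mem_zpowers_r h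
    exact absurd hj (by simp)
  have hrel : (sr 0 : DihedralGroup m) * r 1 * (sr 0)⁻¹ = (r 1) ^ (m - 1) := by
    rw [mul_inv_eq_iff_eq_mul, r_one_pow, r_mul_sr, sr_mul_r]
    congr 1
    have h1 : ((m - 1 : ℕ) : ZMod m) = -1 := by
      rw [Nat.cast_sub (by omega)]
      simp
    rw [h1]
    simp
  have hneg1 : (-1 : SL(2, ZMod q)) ≠ 1 := by
    intro h
    have h1 := congrArg (fun A : SL(2, ZMod q) => A.1 0 0) h
    simp at h1
    apply h2F
    linear_combination -h1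
  let T : PSL(2, ZMod q) := mkP t
  let U : PSL(2, ZMod q) := mkP y
  have hTm : T ^ m = 1 := by
    rw [← map_pow, htn]
    exact mkP_neg_one
  have hTo : orderOf T = m := by
    obtain ⟨d, hd⟩ : ∃ d, c = d + 1 := ⟨c - 1, by omega⟩
    rw [hm, hd]
    apply orderOf_eq_prime_pow
    · intro h
      rw [← map_pow, mkP_eq_one_iff] at h
      apply hneg1
      have hmd : m = 2 ^ d * 2 := by rw [hm, hd, pow_succ]
      rw [← htn, hmd, pow_mul]
      rcases h with h | h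
      · rw [h, one_pow]
      · rw [h, pow_two]
        simp
    · rw [← hd, ← hm]
      exact hTm
  have hUn : U ∉ Subgroup.zpowers T := by
    rintro ⟨j, hj⟩
    have h1 : mkP (t ^ j) = mkP y := by
      rw [map_zpow]
      exact hj
    apply hyn
    rcases mkP_eq_iff.1 h1 with h | h
    · rw [h]
      exact Subgroup.zpow_mem _ (Subgroup.mem_zpowers t) _
    · have h2 : y = t ^ m * t ^ j := by
        rw [h, htn]
        simp
      rw [h2]
      exact Subgroup.mul_mem _ (Subgroup.pow_mem _ (Subgroup.mem_zpowers t) _)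
        (Subgroup.zpow_mem _ (Subgroup.mem_zpowers t) _)
  have hU2 : U ^ 2 = T ^ 0 := by
    rw [← map_pow, hy2, pow_zero]
    exact mkP_neg_one
  have hUT : U * T * U⁻¹ = T ^ (m - 1) := by
    have h1 : U * T * U⁻¹ = T⁻¹ := by
      have h2 := congrArg mkP hyt
      simpa only [map_mul, map_inv] using h2
    rw [h1]
    apply inv_eq_of_mul_eq_one_left
    rw [← pow_succ, Nat.sub_add_cancel (by omega), hTm]
  obtain ⟨ι, hι, hιx, hιy⟩ := exists_embedding (N := m) (t := 0) (r := m - 1) (by omega) hcardM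
    (x := (r 1 : DihedralGroup m)) (y := (sr 0 : DihedralGroup m)) (X := T) (Y := U)
    orderOf_r_one hyM (by rw [pow_zero, pow_two, sr_mul_self]) hrel hTo hUn hU2 hUT
  have hA : (t ^ (2 ^ (c - 1))) ^ 2 = -1 := by
    rw [← pow_mul, ← htn]
    congr 1
    rw [← pow_succ]
    congr 1
    omega
  obtain ⟨g, hg⟩ := exists_conj_sl hn hk hA hy2
  refine not_isNormal_of_model e ι hι ?_ (r 1) ((r 1) ^ (2 ^ (c - 1))) (sr 0)
    (Subgroup.pow_mem _ (Subgroup.mem_zpowers _) _) hyM ?_ (mkP g) ?_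
  · rw [card_PSL_factorization hn hk, hcardM, ho, pow_succ, ← hm]
    ring
  · intro w hw
    rw [orderOf_r_one]
    rcases w with i | i
    · exfalso
      apply hw
      rw [← ZMod.natCast_zmod_val i, ← r_one_pow]
      exact Subgroup.pow_mem _ (Subgroup.mem_zpowers _) _
    · rw [orderOf_sr]
      omega
  · rw [map_pow, hιx, hιy]
    have h1 := congrArg mkP hg
    simpa [T, U] using h1

end Dih

end Cfsg.Agent.Lib.Fusion.Super.Types
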