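/-
If every saturated system over `S` has a chain of strongly closed subgroups with cyclic steps, then `S` is not
homocyclic of rank two, and not dihedral, quasi-dihedral or generalized quaternion.
-/
import Mathlib
import Cfsg.Agent.Lib.Fusion.Super.Abelian
import Cfsg.Agent.Lib.Fusion.Super.Types

set_option autoImplicit false
set_option linter.style.haveILetI false
set_option linter.unusedSectionVars false

namespace Cfsg.Agent.Lib.Fusion.Super.ListForward

open Cfsg Cfsg.Agent.Lib.Fusion.Super.Forward Cfsg.Agent.Lib.Fusion.Super.Backward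
  Cfsg.Agent.Lib.Fusion.Super.Abelian Cfsg.Agent.Lib.Fusion.Super.Types

section Tables

/-- The automorphism of order three of the group of order eight. -/
def thQ : QuaternionGroup 2 → QuaternionGroup 2
  | .a i => if i = 0 then .a 0 else if i = 1 then .xa 0 else if i = 2 then .a 2 else .xa 2
  | .xa i => if i = 0 then .xa 1 else if i = 1 then .a 1 else if i = 2 then .xa 3 else .a 3

theorem thQ_mul : ∀ x y : QuaternionGroup 2, thQ (x * y) = thQ x * thQ y := by decide

theorem thQ_cube : ∀ x : QuaternionGroup 2, thQ (thQ (thQ x)) = x := by decide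

theorem thQ_ne : thQ (.a 1) ≠ .a 1 := by decide

/-- The automorphism of order three of the four-group. -/
def thD : DihedralGroup 2 → DihedralGroup 2
  | .r i => if i = 0 then .r 0 else .sr 0
  | .sr i => if i = 0 then .sr 1 else .r 1

theorem thD_mul : ∀ x y : DihedralGroup 2, thD (x * y) = thD x * thD y := by decide

theorem thD_cube : ∀ x : DihedralGroup 2, thD (thD (thD x)) = x := by decide

theorem thD_ne : thD (.r 1) ≠ .r 1 := by decide

end Tables

section Main

variable {Ω : Type*} [Group Ω] {S : Subgroup Ω} [Finite S]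

/-- A map of order three of a model of `S` is excluded. -/
theorem false_of_cube {M : Type*} [Group M] (hS : IsPGroup 2 S)
    (h : ∀ F : FusionSystem S, F.IsSaturated 2 → HasSupChain F) (e : S ≃* M) (t : M → M)
    (hm : ∀ x y, t (x * y) = t x * t y) (hc : ∀ x, t (t (t x)) = x) {x₀ : M} (hne : t x₀ ≠ x₀) : False := by
  classical
  let θ₀ : M ≃* M :=
    { toFun := t
      invFun := fun x => t (t x)
      left_inv := hc
      right_inv := hc
      map_mul' := hm }
  let θ : MulAut S := e.trans (θ₀.trans e.symm)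
  have hθ3 : θ ^ 3 = 1 := by
    ext x
    show ((θ * (θ * (θ * 1))) x : Ω) = _
    simp only [mul_one]
    have h1 : (θ * (θ * θ)) x = x := by
      show e.symm (t (e (e.symm (t (e (e.symm (t (e x)))))))) = x
      simp [hc]
    rw [h1]
    rfl
  have hord : orderOf θ ∣ 3 := orderOf_dvd_of_pow_eq_one hθ3
  have hcard : (Nat.card (Subgroup.zpowers θ)).Coprime 2 := by
    rw [Nat.card_zpowers]
    exact Nat.Coprime.coprime_dvd_left hord (by norm_num)
  have h1 := (comm_and_pow_of_forall hS h (Subgroup.zpowers θ) hcard).2 θ (Subgroup.mem_zpowers θ)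
  have h2 : θ = 1 := by simpa using h1
  apply hne
  have h3 : θ (e.symm x₀) = e.symm x₀ := by
    rw [h2]
    rfl
  have h4 : e.symm (t (e (e.symm x₀))) = e.symm x₀ := h3
  rw [e.apply_symm_apply] at h4
  exact e.symm.injective h4

/-- A power of two with a divisor. -/
theorem exists_two_pow_of_dvd {n k : ℕ} (h : n ∣ 2 ^ k) (hn : 2 ≤ n) : ∃ c, 1 ≤ c ∧ n = 2 ^ c := by
  obtain ⟨c, -, rfl⟩ := (Nat.dvd_prime_pow Nat.prime_two).1 h
  refine ⟨c, ?_, rfl⟩
  by_contra hc
  have hc0 : c = 0 := by omega
  rw [hc0] at hn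
  simp at hn

/-- The forward direction of the list. -/
theorem not_list_of_forall {p : ℕ} [hp : Fact p.Prime] (hS : IsPGroup p S)
    (h : ∀ F : FusionSystem S, F.IsSaturated p → HasSupChain F) :
    ¬ ((∃ n : ℕ, 0 < n ∧ Nonempty (↥S ≃* Multiplicative (ZMod (p ^ n)) × Multiplicative (ZMod (p ^ n)))) ∨
      (p = 2 ∧ ((∃ n : ℕ, 2 ≤ n ∧ Nonempty (↥S ≃* DihedralGroup n)) ∨ Cfsg.IsQuasiDihedral ↥S ∨
        (∃ n : ℕ, 2 ≤ n ∧ Nonempty (↥S ≃* QuaternionGroup n))))) := by
  rintro (⟨n, hn, ⟨e⟩⟩ | ⟨rfl, hl⟩)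
  · exact false_of_repeated hn (H := Unit) (e.trans MulEquiv.prodUnique.symm) (comm_and_pow_of_forall hS h)
  · have hnorm : ¬ ∃ F : FusionSystem S, F.IsSaturated 2 ∧ ¬ F.IsNormal S := by
      rintro ⟨F, hF, hN⟩
      exact hN (((forall_hasSupChain_iff hS).1 h).1 F hF)
    obtain ⟨k, hk⟩ := (IsPGroup.iff_card).1 hS
    rcases hl with ⟨n, hn, ⟨e⟩⟩ | hq | ⟨n, hn, ⟨e⟩⟩
    · have hc : Nat.card S = 2 * n := by
        rw [Nat.card_congr e.toEquiv, DihedralGroup.nat_card]
      have hd : n ∣ 2 ^ k := by
        rw [← hk, hc]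
        exact Dvd.intro_left _ rfl
      obtain ⟨c, hc1, rfl⟩ := exists_two_pow_of_dvd hd hn
      by_cases hc2 : 2 ≤ c
      · exact hnorm (exists_not_normal_dih c hc2 e)
      · have hc3 : c = 1 := by omega
        subst hc3
        exact false_of_cube hS h e thD thD_mul thD_cube thD_ne
    · exact hnorm (exists_not_normal_qd hq)
    · have hn0 : NeZero n := ⟨by omega⟩
      have hc : Nat.card S = 4 * n := by
        rw [Nat.card_congr e.toEquiv, Nat.card_eq_fintype_card, QuaternionGroup.card]
      have hd : n ∣ 2 ^ k := by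
        rw [← hk, hc]
        exact Dvd.intro_left _ rfl
      obtain ⟨c, hc1, rfl⟩ := exists_two_pow_of_dvd hd hn
      by_cases hc2 : 2 ≤ c
      · exact hnorm (exists_not_normal_quat c hc2 e)
      · have hc3 : c = 1 := by omega
        subst hc3
        exact false_of_cube hS h e thQ thQ_mul thQ_cube thQ_ne

end Main

end Cfsg.Agent.Lib.Fusion.Super.ListForward
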