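/-
If the maps between small cyclic subgroups of the hyperfocal subgroup extend to automorphisms of `S` in the system, then
`S` is normal in the system.
-/
import Mathlib
import Cfsg.Agent.Lib.Fusion.SmallElements
import Cfsg.Agent.Lib.Fusion.OmegaChain
import Cfsg.Agent.Lib.Fusion.Hyperfocal
import Cfsg.Agent.Lib.Fusion.FocalClosed
import Cfsg.Agent.Lib.Fusion.Super.Forward
import Cfsg.Agent.Lib.Fusion.Chain
import Cfsg.Agent.Lib.PGroup.Critical

set_option autoImplicit false
set_option linter.style.haveILetI false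
set_option linter.unusedSectionVars false

namespace Cfsg.Agent.Lib.Fusion.Super.SmallTop

open Cfsg Cfsg.FusionSystem Cfsg.Agent.Lib.Fusion.Basic Cfsg.Agent.Lib.Fusion.Saturated
  Cfsg.Agent.Lib.Fusion.Saturated2 Cfsg.Agent.Lib.Fusion.Chain Cfsg.Agent.Lib.Fusion.Essential
  Cfsg.Agent.Lib.Fusion.Resist.Local Cfsg.Agent.Lib.Fusion.Super.Forward Cfsg.Agent.Lib.Fusion.SmallElements
open scoped commutatorElement

section Group

variable {R : Type*} [Group R] [Finite R] {p : ℕ} [hp : Fact p.Prime]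

/-- A characteristic subgroup of small exponent on which `p'`-automorphisms act faithfully. -/
theorem exists_small_char (hR : IsPGroup p R) {n : ℕ} (hpn : p ∣ n) (hn : p ∣ n.choose 2) :
    ∃ W : Subgroup R, W.Characteristic ∧ (∀ x ∈ W, x ^ n = 1) ∧
      ∀ β : MulAut R, (orderOf β).Coprime p → (∀ x ∈ W, β x = x) → β = 1 := by
  classical
  obtain ⟨C, hchar, h1, h2, h3⟩ := Cfsg.Agent.Lib.PGroup.Critical.exists_critical hR
  have hmul : ∀ x ∈ C, ∀ y ∈ C, (x * y) ^ n = x ^ n * y ^ n := fun x hx y hy =>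
    Cfsg.Agent.Lib.PGroup.Critical.critical_mul_pow hR h1 h2 hn hx hy
  have haut : ∀ (a : MulAut R) (x : R), x ∈ C → a x ∈ C := fun a x hx =>
    (Subgroup.characteristic_iff_map_le.mp hchar a) ⟨x, hx, rfl⟩
  let D₀ : Subgroup R :=
    { carrier := {x | x ∈ C ∧ x ^ n = 1}
      mul_mem' := by
        rintro a b ⟨ha, ha1⟩ ⟨hb, hb1⟩
        exact ⟨C.mul_mem ha hb, by rw [hmul a ha b hb, ha1, hb1, one_mul]⟩
      one_mem' := ⟨C.one_mem, one_pow _⟩
      inv_mem' := by
        rintro a ⟨ha, ha1⟩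
        exact ⟨C.inv_mem ha, by rw [inv_pow, ha1, inv_one]⟩ }
  refine ⟨D₀, ?_, fun x hx => hx.2, ?_⟩
  · rw [Subgroup.characteristic_iff_map_le]
    rintro a _ ⟨x, hx, rfl⟩
    exact ⟨haut a x hx.1, by
      show (a x) ^ n = 1
      rw [← map_pow, hx.2, map_one]⟩
  · intro β hβ hfix
    have hC : ∀ x ∈ C, β x = x :=
      Cfsg.Agent.Lib.PGroup.Critical.fixes_of_fixes_kernel hR C β hβ (fun x hx => haut β x hx) hpn hmul
        (fun x hx hx1 => hfix x ⟨hx, hx1⟩)
    exact Cfsg.Agent.S0121.result hR C hchar h1 h2 h3 β hβ hC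

omit [Finite R] hp in
/-- The upper central series is characteristic. -/
theorem upper_aut (δ : MulAut R) (i : ℕ) {x : R} (hx : x ∈ Subgroup.upperCentralSeries R i) :
    δ x ∈ Subgroup.upperCentralSeries R i := by
  induction i generalizing x with
  | zero =>
    rw [Subgroup.upperCentralSeries_zero, Subgroup.mem_bot] at hx ⊢
    rw [hx, map_one]
  | succ i ih =>
    rw [Subgroup.mem_upperCentralSeries_succ_iff] at hx ⊢
    intro y
    have h1 := ih (hx (δ.symm y))
    simpa using h1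

end Group

section Fusion

variable {Ω : Type*} [Group Ω] {S : Subgroup Ω} {F : FusionSystem S} [Finite S] {p : ℕ} [hp : Fact p.Prime]

/-- The restriction of an automorphism to a subgroup it preserves. -/
noncomputable def restAut {Q : Type*} [Group Q] [Finite Q] (R : Subgroup Q) (α : MulAut Q) (h : ∀ x ∈ R, α x ∈ R) :
    MulAut R :=
  (α.subgroupMap R).trans (MulEquiv.subgroupCongr (by
    have hle : R.map α.toMonoidHom ≤ R := by
      rintro _ ⟨x, hx, rfl⟩
      exact h x hx
    exact Subgroup.eq_of_le_of_card_ge hle (Nat.card_congr (α.subgroupMap R).toEquiv).le))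

theorem restAut_coe {Q : Type*} [Group Q] [Finite Q] (R : Subgroup Q) (α : MulAut Q) (h : ∀ x ∈ R, α x ∈ R) (x : R) :
    ((restAut R α h x : R) : Q) = α x := rfl

/-- Step 1: a map between small cyclic subgroups of the hyperfocal subgroup comes from an automorphism of `S`. -/
theorem exists_aut_of_small (hS : IsPGroup p S) (hF : F.IsSaturated p)
    (h : ∀ A B : Subgroup Ω, A ≤ F.hyperfocalSubgroup p → B ≤ F.hyperfocalSubgroup p →
      IsCyclic ↥A → (Nat.card ↥A = p ∨ Nat.card ↥A = 4) → IsCyclic ↥B →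
      (Nat.card ↥B = p ∨ Nat.card ↥B = 4) → F.homSet A B ⊆ F.normalizerHom S A)
    {Q : Subgroup Ω} (hQ : Q ≤ S) {β : MulAut Q} (hβ : β ∈ F.autGroup Q) (y : Q)
    (hyH : (y : Ω) ∈ F.hyperfocalSubgroup p) (hy : y ^ smallExp p = 1) :
    ∃ δ : MulAut S, ((β y : Q) : Ω) = (δ ⟨y, hQ y.2⟩ : S) := by
  by_cases hy1 : y = 1
  · refine ⟨1, ?_⟩
    subst hy1
    simp
  have hy1' : (y : Ω) ≠ 1 := fun h => hy1 (Subtype.ext h)
  have hφ := autGroup_mem_hom hQ hβ
  have hT := Hyperfocal.stronglyClosed_hyperfocal (F := F) hS hF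
  have hβH : ((β y : Q) : Ω) ∈ F.hyperfocalSubgroup p :=
    FocalClosed.map_mem_of_stronglyClosed hT hφ y hyH
  have hA : Subgroup.zpowers (y : Ω) ≤ F.hyperfocalSubgroup p :=
    (Subgroup.zpowers_le).2 hyH
  have hB : Subgroup.zpowers ((β y : Q) : Ω) ≤ F.hyperfocalSubgroup p :=
    (Subgroup.zpowers_le).2 hβH
  have hAQ : Subgroup.zpowers (y : Ω) ≤ Q := (Subgroup.zpowers_le).2 y.2
  have hys : (y : Ω) ^ smallExp p = 1 := by
    have := congrArg Subtype.val hy
    simpa using this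
  have hβs : ((β y : Q) : Ω) ^ smallExp p = 1 := by
    have h1 : (β y) ^ smallExp p = 1 := by rw [← map_pow, hy, map_one]
    have := congrArg Subtype.val h1
    simpa using this
  have hβ1 : ((β y : Q) : Ω) ≠ 1 := by
    intro h1
    apply hy1
    apply β.injective
    rw [map_one]
    exact Subtype.ext h1
  let φ : Subgroup.zpowers (y : Ω) →* Ω :=
    (Q.subtype.comp β.toMonoidHom).comp (Subgroup.inclusion hAQ)
  have hφm : φ ∈ F.Hom (Subgroup.zpowers (y : Ω)) := res_mem hφ hAQ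
  have hφv : ∀ x : Subgroup.zpowers (y : Ω), φ x ∈ Subgroup.zpowers ((β y : Q) : Ω) := by
    rintro ⟨x, k, rfl⟩
    refine ⟨k, ?_⟩
    have e : (⟨(y : Ω) ^ k, k, rfl⟩ : Subgroup.zpowers (y : Ω)) =
        (⟨(y : Ω), Subgroup.mem_zpowers _⟩ : Subgroup.zpowers (y : Ω)) ^ k := rfl
    change ((β y : Q) : Ω) ^ k = φ _
    simp only [e, map_zpow]
    rfl
  have hin := h _ _ hA hB inferInstance (card_zpowers_of_small hS hys hy1') inferInstance
    (card_zpowers_of_small hS hβs hβ1) ⟨hφm, hφv⟩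
  obtain ⟨-, -, -, ψ, hψ, hext, -⟩ := hin
  have hψ₀ : ψ.comp (Subgroup.inclusion le_sup_right) ∈ F.Hom S := res_mem hψ le_sup_right
  have hv : ∀ x, (ψ.comp (Subgroup.inclusion le_sup_right)) x ∈ S := map_mem_S hψ₀
  refine ⟨autOfHom _ (F.injective_of_mem hψ₀) hv, ?_⟩
  rw [autOfHom_coe]
  have h1 := hext ⟨y, Subgroup.mem_zpowers _⟩
  have h2 : φ ⟨y, Subgroup.mem_zpowers _⟩ = ((β y : Q) : Ω) := rfl
  rw [← h2, ← h1]
  rfl

/-- The essential subgroups are trivial candidates: only `S` remains. -/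
theorem eq_of_essential_of_small (hS : IsPGroup p S) (hF : F.IsSaturated p)
    (h : ∀ A B : Subgroup Ω, A ≤ F.hyperfocalSubgroup p → B ≤ F.hyperfocalSubgroup p →
      IsCyclic ↥A → (Nat.card ↥A = p ∨ Nat.card ↥A = 4) → IsCyclic ↥B →
      (Nat.card ↥B = p ∨ Nat.card ↥B = 4) → F.homSet A B ⊆ F.normalizerHom S A)
    {Q : Subgroup Ω} (hQ : F.IsEssential p Q) : Q = S := by
  classical
  by_contra hne
  have hQS : Q ≤ S := hQ.1.1
  have hC : centralizerIn S Q ≤ Q := hQ.1.2 Q (Basic.IsConj.refl hQS)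
  have hlt : Q < S := lt_of_le_of_ne hQS hne
  obtain ⟨t, ht, htQ⟩ := SetLike.exists_of_lt (lt_normalizerIn hS hlt)
  haveI : Finite Q := finite_of_le hQS
  haveI := finite_autGroup (F := F) hQS
  haveI := finite_mulAut hQS
  have hQp : IsPGroup p Q := isPGroup_of_le hS hQS
  have hT := Hyperfocal.stronglyClosed_hyperfocal (F := F) hS hF
  -- the hyperfocal part of `Q`
  let R : Subgroup Q := (F.hyperfocalSubgroup p).comap Q.subtype
  have hRinv : ∀ α ∈ F.autGroup Q, ∀ x ∈ R, α x ∈ R := fun α hα x hx =>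
    FocalClosed.map_mem_of_stronglyClosed hT (autGroup_mem_hom hQS hα) x hx
  have hRp : IsPGroup p R := hQp.to_subgroup R
  obtain ⟨W₀, hchar, hsmall, hfaith⟩ := exists_small_char hRp (n := smallExp p) dvd_smallExp dvd_choose_smallExp
  let W : Subgroup Q := W₀.map R.subtype
  have hWinv : ∀ α ∈ F.autGroup Q, ∀ x ∈ W, α x ∈ W := by
    rintro α hα _ ⟨r, hr, rfl⟩
    refine ⟨restAut R α (hRinv α hα) r, ?_, rfl⟩
    exact (Subgroup.characteristic_iff_map_le.mp hchar (restAut R α (hRinv α hα))) ⟨r, hr, rfl⟩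
  have hWR : ∀ x ∈ W, x ∈ R := by
    rintro _ ⟨r, -, rfl⟩
    exact r.2
  have hWs : ∀ x ∈ W, x ^ smallExp p = 1 := by
    rintro _ ⟨r, hr, rfl⟩
    have h1 := hsmall r hr
    have h2 := congrArg Subtype.val h1
    simpa using h2
  -- the chain
  let D : ℕ → Subgroup Q := fun i => W ⊓ (Subgroup.upperCentralSeries S i).comap (Subgroup.inclusion hQS)
  haveI : Group.IsNilpotent S := hS.isNilpotent
  obtain ⟨m, hm⟩ := (Group.IsNilpotent.nilpotent' : ∃ n : ℕ, Subgroup.upperCentralSeries S n = ⊤)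
  have hD0 : D 0 = ⊥ := by
    rw [eq_bot_iff]
    rintro x ⟨-, hx⟩
    have hx' : Subgroup.inclusion hQS x ∈ Subgroup.upperCentralSeries S 0 := hx
    rw [Subgroup.upperCentralSeries_zero, Subgroup.mem_bot] at hx'
    rw [Subgroup.mem_bot]
    apply Subtype.ext
    have h3 : ((Subgroup.inclusion hQS x : S) : Ω) = ((1 : S) : Ω) := congrArg Subtype.val hx'
    exact h3
  have hDm : ∀ x ∈ W, x ∈ D m := by
    intro x hx
    refine ⟨hx, ?_⟩
    show Subgroup.inclusion hQS x ∈ Subgroup.upperCentralSeries S m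
    rw [hm]
    trivial
  have hDinv : ∀ i ≤ m, ∀ α ∈ F.autGroup Q, ∀ x ∈ D i, α x ∈ D i := by
    rintro i - α hα x ⟨hxW, hxZ⟩
    refine ⟨hWinv α hα x hxW, ?_⟩
    obtain ⟨δ, hδ⟩ := exists_aut_of_small hS hF h hQS hα x (hWR x hxW) (hWs x hxW)
    have h1 : Subgroup.inclusion hQS (α x) = δ (Subgroup.inclusion hQS x) := Subtype.ext hδ
    show Subgroup.inclusion hQS (α x) ∈ Subgroup.upperCentralSeries S i
    rw [h1]
    exact upper_aut δ i hxZ
  let K := chainStab (F.autGroup Q) D m hDinv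
  haveI hKn : K.Normal := chainStab_normal _ _ m hDinv
  have hKp : IsPGroup p K := by
    refine Cfsg.Agent.Lib.Coprime.Stability.isPGroup_of_forall_coprime hp.out _ ?_
    intro γ hγ hc
    apply Subtype.ext
    have hc' : (orderOf (γ : MulAut Q)).Coprime p := by rwa [Subgroup.orderOf_coe]
    have hfix := OmegaChain.fix_of_stab_chain hQp hD0 hγ hc' m le_rfl
    -- the restriction to `R` is trivial
    have hinvγ := hRinv γ γ.2
    have hres : restAut R γ hinvγ = 1 := by
      apply hfaith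
      · apply Nat.Coprime.coprime_dvd_left _ hc'
        apply orderOf_dvd_of_pow_eq_one
        have hpow : ∀ (k : ℕ) (x : R), (((restAut R γ hinvγ ^ k) x : R) : Q) = ((γ : MulAut Q) ^ k) x := by
          intro k
          induction k with
          | zero => intro x; rfl
          | succ k ih =>
            intro x
            rw [pow_succ', pow_succ', MulAut.mul_apply, MulAut.mul_apply, restAut_coe, ih]
        ext x
        rw [hpow, pow_orderOf_eq_one]
        rfl
      · intro x hx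
        apply Subtype.ext
        rw [restAut_coe]
        exact hfix _ (hDm _ ⟨x, hx, rfl⟩)
    refine eq_one_of_fixed_quots hQp (γ : MulAut Q) hc' R (fun x => ?_) (fun x hx => ?_)
    · exact Hyperfocal.mem_hyperfocal_of_coprime (F := F) (p := p) hQS (α := γ)
        (by rw [← Subgroup.orderOf_coe]; exact hc') x
    · have h1 := congrArg (fun β : MulAut R => ((β ⟨x, hx⟩ : R) : Q)) hres
      exact h1
  let γ : F.autGroup Q :=
    ⟨normConj t ht.2, autInducedBy_le_autGroup hQS (normConj_mem_autInducedBy ht.1 ht.2)⟩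
  have hγK : γ ∈ K := by
    rintro i - x ⟨hxW, hxZ⟩
    have hγx : ((γ : MulAut Q) x : Ω) = t * x * t⁻¹ := normConj_apply t ht.2 x
    refine ⟨W.mul_mem (W.inv_mem hxW) (hWinv _ γ.2 x hxW), ?_⟩
    show Subgroup.inclusion hQS (x⁻¹ * (γ : MulAut Q) x) ∈ Subgroup.upperCentralSeries S i
    have hx' : Subgroup.inclusion hQS x ∈ Subgroup.upperCentralSeries S (i + 1) := hxZ
    have h1 := Subgroup.mem_upperCentralSeries_succ_iff.1
      (Subgroup.inv_mem _ hx') (⟨t, ht.1⟩ : S)
    have h2 : Subgroup.inclusion hQS (x⁻¹ * (γ : MulAut Q) x) =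
        ⁅(Subgroup.inclusion hQS x)⁻¹, (⟨t, ht.1⟩ : S)⁆ := by
      apply Subtype.ext
      show ((x : Ω))⁻¹ * (((γ : MulAut Q) x : Q) : Ω) = _
      rw [hγx]
      simp [commutatorElement_def]
      group
    rw [h2]
    exact h1
  have hmem := mem_inn_of_normal_of_essential hQ hKn hKp hγK
  exact normConj_not_mem_inn hQS hC ht.1 ht.2 htQ hmem

/-- **The small-control theorem for the top**. -/
theorem isNormal_top_of_small (hS : IsPGroup p S) (hF : F.IsSaturated p)
    (h : ∀ A B : Subgroup Ω, A ≤ F.hyperfocalSubgroup p → B ≤ F.hyperfocalSubgroup p →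
      IsCyclic ↥A → (Nat.card ↥A = p ∨ Nat.card ↥A = 4) → IsCyclic ↥B →
      (Nat.card ↥B = p ∨ Nat.card ↥B = 4) → F.homSet A B ⊆ F.normalizerHom S A) : F.IsNormal S := by
  rw [NormalEssential.isNormal_iff_essential hS hF]
  intro T hT
  have hTS : T = S := by
    rcases hT with rfl | hT
    · rfl
    · exact eq_of_essential_of_small hS hF h hT
  subst hTS
  refine ⟨le_rfl, fun α hα => ?_⟩
  have h1 : T.subgroupOf T = ⊤ := Subgroup.subgroupOf_self T
  rw [h1]
  exact Subgroup.map_top_of_surjective _ α.surjective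

end Fusion

end Cfsg.Agent.Lib.Fusion.Super.SmallTop
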