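/-
A subgroup `Z` of the centre of `S` containing the derived subgroup, invariant under the automorphism groups of the
essential subgroups, leaves no essential subgroups: `S` is normal in the system.
-/
import Mathlib
import Cfsg.Agent.Lib.Fusion.Super.Forward

set_option autoImplicit false
set_option linter.style.haveILetI false
set_option linter.unusedSectionVars false

namespace Cfsg.Agent.Lib.Fusion.Super.TwoStep

open Cfsg Cfsg.FusionSystem Cfsg.Agent.Lib.Fusion.Basic Cfsg.Agent.Lib.Fusion.Saturated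
  Cfsg.Agent.Lib.Fusion.Saturated2 Cfsg.Agent.Lib.Fusion.Chain Cfsg.Agent.Lib.Fusion.Essential
  Cfsg.Agent.Lib.Fusion.Resist.Local Cfsg.Agent.Lib.Fusion.Super.Forward
open scoped commutatorElement

variable {Ω : Type*} [Group Ω] {S : Subgroup Ω} {F : FusionSystem S} [Finite S] {p : ℕ} [hp : Fact p.Prime]

theorem eq_of_essential_of_central (hS : IsPGroup p S) (Z : Subgroup S) (hZc : ∀ z ∈ Z, ∀ g : S, g * z = z * g)
    (hcomm : ∀ x y : S, ⁅x, y⁆ ∈ Z) {Q : Subgroup Ω} (hQ : F.IsEssential p Q)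
    (hinv : ∀ (hQS : Q ≤ S), ∀ α ∈ F.autGroup Q, ∀ x : Q, Subgroup.inclusion hQS x ∈ Z →
      Subgroup.inclusion hQS (α x) ∈ Z) : Q = S := by
  classical
  by_contra hne
  have hQS : Q ≤ S := hQ.1.1
  have hC : centralizerIn S Q ≤ Q := hQ.1.2 Q (Basic.IsConj.refl hQS)
  have hlt : Q < S := lt_of_le_of_ne hQS hne
  obtain ⟨t, ht, htQ⟩ := SetLike.exists_of_lt (lt_normalizerIn hS hlt)
  haveI : Finite Q := finite_of_le hQS
  haveI := finite_autGroup (F := F) hQS
  haveI := finite_mulAut hQS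
  have hQp : IsPGroup p Q := isPGroup_of_le hS hQS
  let γ : F.autGroup Q :=
    ⟨normConj t ht.2, autInducedBy_le_autGroup hQS (normConj_mem_autInducedBy ht.1 ht.2)⟩
  -- the chain
  let D : ℕ → Subgroup Q := fun i => if i = 0 then ⊥ else if i = 1 then Z.comap (Subgroup.inclusion hQS) else ⊤
  have hD0 : D 0 = ⊥ := rfl
  have hD1 : D 1 = Z.comap (Subgroup.inclusion hQS) := rfl
  have hD2 : D 2 = ⊤ := rfl
  have hDinv : ∀ i ≤ 2, ∀ α ∈ F.autGroup Q, ∀ x ∈ D i, α x ∈ D i := by
    intro i hi α hα x hx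
    have hi' : i = 0 ∨ i = 1 ∨ i = 2 := by omega
    rcases hi' with rfl | rfl | rfl
    · rw [hD0, Subgroup.mem_bot] at hx ⊢
      rw [hx, map_one]
    · rw [hD1] at hx ⊢
      exact hinv hQS α hα x hx
    · rw [hD2]
      trivial
  let K := chainStab (F.autGroup Q) D 2 hDinv
  haveI hKn : K.Normal := chainStab_normal _ _ 2 hDinv
  have hKp : IsPGroup p K := chainStab_isPGroup hQp _ hD0 hD2 hDinv
  have hγK : γ ∈ K := by
    intro i hi x hx
    have hi' : i = 0 ∨ i = 1 := by omega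
    have hγx : ∀ y : Q, ((γ : MulAut Q) y : Ω) = t * y * t⁻¹ := fun y => normConj_apply t ht.2 y
    rcases hi' with rfl | rfl
    · -- on `Z`, trivial
      rw [hD0, Subgroup.mem_bot]
      have hx' : Subgroup.inclusion hQS x ∈ Z := hx
      have h1 := hZc _ hx' ⟨t, ht.1⟩
      have h2 : t * (x : Ω) = x * t := congrArg Subtype.val h1
      have h3 : (γ : MulAut Q) x = x := by
        apply Subtype.ext
        rw [hγx, h2]
        group
      rw [h3]
      simp
    · show x⁻¹ * (γ : MulAut Q) x ∈ D 1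
      rw [hD1, Subgroup.mem_comap]
      have h1 := hcomm (Subgroup.inclusion hQS x)⁻¹ ⟨t, ht.1⟩
      have h2 : Subgroup.inclusion hQS (x⁻¹ * (γ : MulAut Q) x) = ⁅(Subgroup.inclusion hQS x)⁻¹, (⟨t, ht.1⟩ : S)⁆ := by
        apply Subtype.ext
        show ((x : Ω))⁻¹ * (((γ : MulAut Q) x : Q) : Ω) = _
        rw [hγx]
        simp [commutatorElement_def]
        group
      rw [h2]
      exact h1
  have hmem := mem_inn_of_normal_of_essential hQ hKn hKp hγK
  exact normConj_not_mem_inn hQS hC ht.1 ht.2 htQ hmem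

/-- The two-step theorem. -/
theorem isNormal_top_of_central (hS : IsPGroup p S) (hF : F.IsSaturated p) (Z : Subgroup S)
    (hZc : ∀ z ∈ Z, ∀ g : S, g * z = z * g) (hcomm : ∀ x y : S, ⁅x, y⁆ ∈ Z)
    (hinv : ∀ {Q : Subgroup Ω}, F.IsEssential p Q → ∀ (hQS : Q ≤ S), ∀ α ∈ F.autGroup Q, ∀ x : Q,
      Subgroup.inclusion hQS x ∈ Z → Subgroup.inclusion hQS (α x) ∈ Z) : F.IsNormal S := by
  rw [NormalEssential.isNormal_iff_essential hS hF]
  intro T hT
  have hTS : T = S := by
    rcases hT with rfl | hT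
    · rfl
    · exact eq_of_essential_of_central hS Z hZc hcomm hT (hinv hT)
  subst hTS
  refine ⟨le_rfl, fun α hα => ?_⟩
  have h1 : T.subgroupOf T = ⊤ := Subgroup.subgroupOf_self T
  rw [h1]
  exact Subgroup.map_top_of_surjective _ α.surjective

end Cfsg.Agent.Lib.Fusion.Super.TwoStep
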